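import Cfsg.Agent.ScnThreeFree.Bounds
import Cfsg.Agent.TwoGroup.UniqueInvolution

/-!
The three groups: `Q₈`, special of order 64 with three involutions, extraspecial of order 32 with
eleven involutions.
-/

set_option autoImplicit false

open scoped commutatorElement

namespace CfsgLib.ScnThreeFree

variable {X : Type*} [Group X]

/-- The conclusion of the classification. -/
def Shape (X : Type*) [Group X] : Prop :=
  Nonempty (X ≃* QuaternionGroup 2) ∨
    (Cfsg.IsSpecial 2 X ∧ Nat.card X = 64 ∧ Nat.card {x : X // orderOf x = 2} = 3 ∧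
      ∀ x : X, orderOf x = 2 → x ∈ Subgroup.center X) ∨
    (Cfsg.IsExtraspecial 2 X ∧ Nat.card X = 32 ∧ Nat.card {x : X // orderOf x = 2} = 11)

namespace Base

variable {A : Subgroup (MulAut X)} {V : Subgroup X} [Finite X]

theorem fixed_of_card_two (b : Base A V) {W : Subgroup X} (hW : Inv A W) (h2 : Nat.card W = 2)
    {φ : MulAut X} (hφ : φ ∈ A) {w : X} (hw : w ∈ W) : φ w = w := by
  by_cases hw1 : w = 1
  · rw [hw1, map_one]
  obtain ⟨u, v, -, huv⟩ := Nat.card_eq_two_iff.1 h2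
  have e1 : (⟨φ w, hW φ hφ w hw⟩ : W) ∈ ({u, v} : Set W) := huv ▸ Set.mem_univ _
  have e2 : (⟨w, hw⟩ : W) ∈ ({u, v} : Set W) := huv ▸ Set.mem_univ _
  have e3 : (1 : W) ∈ ({u, v} : Set W) := huv ▸ Set.mem_univ _
  simp only [Set.mem_insert_iff, Set.mem_singleton_iff] at e1 e2 e3
  have hφ1 : φ w ≠ 1 := fun e => hw1 (φ.injective (e.trans (map_one φ).symm))
  rcases e1 with e1 | e1 <;> rcases e2 with e2 | e2 <;> rcases e3 with e3 | e3 <;>
    first
      | exact congrArg Subtype.val (e1.trans e2.symm)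
      | exact absurd (congrArg Subtype.val (e1.trans e3.symm)) hφ1
      | exact absurd (congrArg Subtype.val (e2.trans e3.symm)) hw1

/-- If `A` fixes `V` pointwise, every invariant normal `N ≤ V` containing all commutators is `V`. -/
theorem le_of_fixed (b : Base A V) {N : Subgroup X} [N.Normal] (hN : Inv A N)
    (hc : ∀ x y : X, ⁅x, y⁆ ∈ N) (hfix : ∀ φ ∈ A, ∀ v ∈ V, φ v = v) : V ≤ N := fun v hv =>
  b.hyp.mem_of_fixed hN hc fun φ hφ => by rw [hfix φ hφ v hv, inv_mul_cancel]; exact N.one_mem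

theorem commutator_le (b : Base A V) : commutator X ≤ V := by
  rw [commutator_def]
  exact Subgroup.commutator_le.2 fun x _ y _ => b.comm x y

theorem commutator_mem' (x y : X) : ⁅x, y⁆ ∈ commutator X :=
  Subgroup.commutator_mem_commutator (Subgroup.mem_top x) (Subgroup.mem_top y)

theorem commutator_eq (b : Base A V) : commutator X = V := by
  haveI : Fact (Nat.Prime 2) := ⟨Nat.prime_two⟩
  refine le_antisymm b.commutator_le ?_
  have hinv : Inv A (commutator X) := Hyp.inv_of_characteristic inferInstance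
  by_cases hfix : ∀ φ ∈ A, ∀ v ∈ V, φ v = v
  · exact b.le_of_fixed hinv commutator_mem' hfix
  by_contra hne
  apply hfix
  intro φ hφ v hv
  obtain ⟨x, hx⟩ := b.exists_not_mem
  obtain ⟨y, hy⟩ := b.exists_comm_ne hx
  have hlt : Nat.card (commutator X) < Nat.card V := Set.Finite.card_lt_card (Set.toFinite _)
    (SetLike.coe_ssubset_coe.2 (lt_of_le_of_ne b.commutator_le fun e => hne e.ge))
  obtain ⟨k, hk⟩ := IsPGroup.iff_card.1 (b.hyp.isPGroup.to_subgroup (commutator X))
  obtain ⟨l, hl⟩ := IsPGroup.iff_card.1 (b.hyp.isPGroup.to_subgroup V)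
  have hl2 : l ≤ 2 := (Nat.pow_le_pow_iff_right (show 1 < 2 by omega)).1 (hl ▸ b.card_le)
  have hkl : k < l := (Nat.pow_lt_pow_iff_right (show 1 < 2 by omega)).1 (by rwa [← hk, ← hl])
  have hk0 : k ≠ 0 := fun e => hy (by
    have := commutator_mem' x y
    rwa [Subgroup.eq_bot_of_card_eq _ (hk.trans (by rw [e, pow_zero])), Subgroup.mem_bot] at this)
  have hk1 : Nat.card (commutator X) = 2 := by rw [hk, show k = 1 by omega, pow_one]
  have hidx : ((commutator X).subgroupOf V).index = 2 := by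
    have h := ((commutator X).subgroupOf V).card_mul_index
    rw [Nat.card_congr (Subgroup.subgroupOfEquivOfLe b.commutator_le).toEquiv, hk1, hl,
      show l = 2 by omega] at h
    omega
  -- `v⁻¹ * φ v` lies in the commutator subgroup
  by_cases hvc : v ∈ commutator X
  · exact b.fixed_of_card_two hinv hk1 hφ hvc
  have hφv : φ v ∉ commutator X := fun h => hvc (by
    have h1 := b.fixed_of_card_two hinv hk1 hφ h
    rwa [φ.injective h1] at h)
  have hmem : v⁻¹ * φ v ∈ commutator X :=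
    (Subgroup.mul_mem_iff_of_index_two hidx (a := (⟨v, hv⟩ : V)⁻¹) (b := ⟨φ v, b.inv φ hφ v hv⟩)).2
      ⟨fun h => absurd (inv_mem_iff.1 h) hvc, fun h => absurd h hφv⟩
  exact b.hyp.fixed_of_step hφ (b.fixed_of_card_two hinv hk1 hφ hmem)
    (b.two _ (b.commutator_le hmem))

theorem frattini_eq (b : Base A V) : frattini X = V := by
  haveI : Fact (Nat.Prime 2) := ⟨Nat.prime_two⟩
  haveI := b.normal
  exact le_antisymm (PGroup.frattini_le_of_elementary b.comm b.sq_mem)
    (b.commutator_eq.symm.le.trans (PGroup.commutator_le_frattini b.hyp.isPGroup))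

theorem isSpecial (b : Base A V) : Cfsg.IsSpecial 2 X :=
  ⟨b.hyp.isPGroup, b.frattini_eq.trans b.eq_center, b.commutator_eq.trans b.eq_center⟩

theorem no_involution (b : Base A V) (hV : Nat.card V = 4) {u : X} (hu : u ^ 2 = 1) : u ∈ V := by
  by_contra hn
  have hT := b.card_adjoin le_rfl hn
  have hc : ∀ g ∈ V ⊔ Subgroup.zpowers u, ∀ g' ∈ V ⊔ Subgroup.zpowers u, ⁅g, g'⁆ = 1 := by
    intro g hg g' hg'
    have h1 : g ∈ b.cent u :=
      (sup_le (b.le_cent u) (Subgroup.zpowers_le.2 (b.self_mem_cent u)) : V ⊔ Subgroup.zpowers u ≤ _) hg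
    exact b.mem_cent.1 ((sup_le (b.le_cent g) (Subgroup.zpowers_le.2 (b.cent_symm h1)) :
      V ⊔ Subgroup.zpowers u ≤ _) hg')
  have hn' := b.normal_of_le (le_sup_left : V ≤ V ⊔ Subgroup.zpowers u)
  have hexp : ∀ g ∈ V ⊔ Subgroup.zpowers u, g ^ 2 = 1 := by
    intro g hg
    haveI := b.normal
    rw [← SetLike.mem_coe, Subgroup.normal_mul, Set.mem_mul] at hg
    obtain ⟨v, hv, _, ⟨i, rfl⟩, rfl⟩ := hg
    rw [b.mul_sq_of_comm (b.left_mem hv _), b.two v hv, one_mul, ← zpow_natCast, ← zpow_mul,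
      mul_comm i, zpow_mul, zpow_natCast, hu, one_zpow]
  have h := b.hyp.rank _ hn' (fun g hg g' hg' => commutatorElement_eq_one_iff_mul_comm.1
    (hc g hg g' hg')) hexp
  omega

section Small

open Classical in
/-- For `|X / V| ≤ 8` the squares of the elements outside `V` are all equal. -/
theorem sq_const (b : Base A V) (h8 : V.index = 4 ∨ V.index = 8) (hfix : V.index = 4 → ∀ φ ∈ A, ∀ v ∈ V, φ v = v) :
    ∃ v : X, ∀ x : X, x ∉ V → x ^ 2 = v := by
  haveI := b.normal
  haveI : Finite (MulAut X) := Finite.of_injective (fun s : MulAut X => (s : X → X)) DFunLike.coe_injective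
  have hmap : ∀ φ : A, V ≤ V.comap ((φ : MulAut X) : X ≃* X).toMonoidHom := fun φ v hv => b.inv _ φ.2 v hv
  letI act : MulAction A (X ⧸ V) :=
    { smul := fun φ q => QuotientGroup.map V V ((φ : MulAut X) : X ≃* X).toMonoidHom (hmap φ) q
      mul_smul := fun φ ψ q => by induction q using QuotientGroup.induction_on; rfl
      one_smul := fun q => by induction q using QuotientGroup.induction_on; rfl }
  have hsmul : ∀ (φ : A) (x : X), φ • (x : X ⧸ V) = (((φ : MulAut X) x : X) : X ⧸ V) := fun _ _ => rfl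
  haveI : Fintype (X ⧸ V) := Fintype.ofFinite _
  have hn : Nat.card (X ⧸ V) = V.index := rfl
  have horb : ∀ q : X ⧸ V, q ≠ 1 → 3 ≤ (MulAction.orbit A q).ncard ∧
      (1 : X ⧸ V) ∉ MulAction.orbit A q := by
    intro q hq
    induction q using QuotientGroup.induction_on with
    | H x =>
    have hxV : x ∉ V := fun h => hq ((QuotientGroup.eq_one_iff x).2 h)
    refine ⟨?_, ?_⟩
    · have hodd : Odd (MulAction.orbit A (x : X ⧸ V)).ncard := by
        rw [← Nat.card_coe_set_eq, Nat.card_congr (MulAction.orbitEquivQuotientStabilizer A _)]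
        exact Odd.of_dvd_nat b.hyp.odd (Subgroup.index_dvd_card _)
      have hne : (MulAction.orbit A (x : X ⧸ V)).ncard ≠ 1 := by
        intro h1
        obtain ⟨c, hc⟩ := Set.ncard_eq_one.1 h1
        have hxc : (x : X ⧸ V) = c := by
          have := MulAction.mem_orbit_self (M := A) (x : X ⧸ V)
          rwa [hc, Set.mem_singleton_iff] at this
        refine hxV (b.mem_of_fixed fun φ hφ => QuotientGroup.eq.1 ?_)
        have := MulAction.mem_orbit (x : X ⧸ V) (⟨φ, hφ⟩ : A)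
        rw [hc, Set.mem_singleton_iff, hsmul] at this
        rw [this, hxc]
      obtain ⟨k, hk⟩ := hodd
      omega
    · rintro ⟨φ, hφ⟩
      exact hxV (by
        have h1 : (((φ : MulAut X) x : X) : X ⧸ V) = 1 := hφ
        have h2 := b.inv _ (inv_mem φ.2) _ ((QuotientGroup.eq_one_iff _).1 h1)
        rwa [MulAut.inv_apply, MulEquiv.symm_apply_apply] at h2)
  obtain ⟨x₀, hx₀⟩ := b.exists_not_mem
  set q₀ : X ⧸ V := (x₀ : X ⧸ V)
  have hq₀ : q₀ ≠ 1 := fun e => hx₀ ((QuotientGroup.eq_one_iff _).1 e)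
  have htrans : ∀ q : X ⧸ V, q ≠ 1 → q ∈ MulAction.orbit A q₀ := by
    intro q hq
    by_contra hnot
    obtain ⟨h1, h1'⟩ := horb q₀ hq₀
    obtain ⟨h2, h2'⟩ := horb q hq
    have hd : Disjoint (MulAction.orbit A q₀) (MulAction.orbit A q) := by
      rw [Set.disjoint_left]
      intro a ha ha'
      exact hnot (MulAction.orbit_eq_iff.1 ((MulAction.orbit_eq_iff.2 ha').symm.trans
        (MulAction.orbit_eq_iff.2 ha)))
    set U := MulAction.orbit A q₀ ∪ MulAction.orbit A q with hU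
    have hUc : U.ncard = (MulAction.orbit A q₀).ncard + (MulAction.orbit A q).ncard :=
      Set.ncard_union_eq hd
    have hU1 : (1 : X ⧸ V) ∉ U := fun h => h.elim h1' h2'
    have hle : (insert (1 : X ⧸ V) U).ncard ≤ V.index := hn ▸ Set.ncard_le_card _
    rw [Set.ncard_insert_of_notMem hU1, hUc] at hle
    obtain hi | hi := h8
    · omega
    by_cases hfull : (insert (1 : X ⧸ V) U) = Set.univ
    · have h := congrArg Set.ncard hfull
      rw [Set.ncard_insert_of_notMem hU1, hUc, Set.ncard_univ, hn, hi] at h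
      have o1 : Odd (MulAction.orbit A q₀).ncard := by
        rw [← Nat.card_coe_set_eq, Nat.card_congr (MulAction.orbitEquivQuotientStabilizer A _)]
        exact Odd.of_dvd_nat b.hyp.odd (Subgroup.index_dvd_card _)
      have o2 : Odd (MulAction.orbit A q).ncard := by
        rw [← Nat.card_coe_set_eq, Nat.card_congr (MulAction.orbitEquivQuotientStabilizer A _)]
        exact Odd.of_dvd_nat b.hyp.odd (Subgroup.index_dvd_card _)
      obtain ⟨i, hi1⟩ := o1
      obtain ⟨j, hj1⟩ := o2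
      omega
    obtain ⟨c, hc⟩ := (Set.ne_univ_iff_exists_notMem _).1 hfull
    obtain ⟨h3, h3'⟩ := horb c (fun e => hc (Or.inl e))
    have hd3 : Disjoint U (MulAction.orbit A c) := by
      rw [Set.disjoint_left]
      intro a ha ha'
      refine hc (Or.inr ?_)
      rcases ha with ha | ha
      · exact Or.inl (MulAction.orbit_eq_iff.1 ((MulAction.orbit_eq_iff.2 ha').symm.trans
          (MulAction.orbit_eq_iff.2 ha)))
      · exact Or.inr (MulAction.orbit_eq_iff.1 ((MulAction.orbit_eq_iff.2 ha').symm.trans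
          (MulAction.orbit_eq_iff.2 ha)))
    have hle3 : (insert (1 : X ⧸ V) (U ∪ MulAction.orbit A c)).ncard ≤ V.index := hn ▸ Set.ncard_le_card _
    rw [Set.ncard_insert_of_notMem (fun h => h.elim hU1 h3'), Set.ncard_union_eq hd3, hUc, hi] at hle3
    omega
  refine ⟨x₀ ^ 2, fun x hx => ?_⟩
  have hsqφ : ∀ z : X, z ∉ V → ∃ φ ∈ A, z ^ 2 = φ (x₀ ^ 2) := by
    intro z hz
    obtain ⟨φ, hφ⟩ := htrans (z : X ⧸ V) (fun e => hz ((QuotientGroup.eq_one_iff _).1 e))
    exact ⟨φ, φ.2, (b.sq_congr (QuotientGroup.eq.1 (hφ : ((((φ : MulAut X) x₀ : X)) : X ⧸ V) = _))).trans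
      (map_pow (φ : MulAut X) x₀ 2).symm⟩
  obtain ⟨φ₁, hφ₁, he₁⟩ := hsqφ x hx
  rw [he₁]
  rcases h8 with hi | hi
  · exact hfix hi φ₁ hφ₁ _ (b.sq_mem x₀)
  -- `|X / V| = 8`: the fibres of squaring have equal size
  by_contra hmove
  let qs : X ⧸ V → X := fun q => Quotient.liftOn' q (fun z : X => z ^ 2) fun z z' hzz =>
    (b.sq_congr (QuotientGroup.leftRel_apply.1 hzz)).symm
  have hqs : ∀ z : X, qs (z : X ⧸ V) = z ^ 2 := fun z => rfl
  let F : X → Set (X ⧸ V) := fun w => {q | q ≠ 1 ∧ qs q = w}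
  have hF : ∀ φ ∈ A, ∀ w, (F w).ncard ≤ (F ((φ : MulAut X) w)).ncard := by
    intro φ hφ w
    refine Set.ncard_le_ncard_of_injOn (fun q => (⟨φ, hφ⟩ : A) • q) (fun q hq => ?_)
      (fun q _ q' _ h => smul_left_cancel _ h) (Set.toFinite _)
    obtain ⟨z, rfl⟩ := QuotientGroup.mk_surjective q
    refine ⟨fun e => ?_, ?_⟩
    · exact hq.1 (smul_left_cancel (⟨φ, hφ⟩ : A) (e.trans (by
        rw [← QuotientGroup.mk_one, hsmul, map_one])))
    · have h2 : z ^ 2 = w := hq.2
      show qs (((φ z : X)) : X ⧸ V) = φ w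
      rw [hqs, ← h2, map_pow]
  set w₀ := x₀ ^ 2
  have hw₀ : w₀ ∈ V := b.sq_mem x₀
  set w₁ := φ₁ w₀ with hw₁
  set w₂ := φ₁ w₁ with hw₂
  have hV4 := b.card_le
  have hw01 : w₁ ≠ w₀ := hmove
  have hw12 : w₂ ≠ w₁ := fun e => hw01 (φ₁.injective e)
  have hw₀1 : w₀ ≠ 1 := fun e => hw01 (by rw [hw₁, e, map_one])
  have hw₁1 : w₁ ≠ 1 := fun e => hw₀1 (φ₁.injective (e.trans (map_one φ₁).symm))
  have hw₂1 : w₂ ≠ 1 := fun e => hw₁1 (φ₁.injective (e.trans (map_one φ₁).symm))
  have hw02 : w₂ ≠ w₀ := by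
    intro e
    have hpow : ∀ n, (φ₁ ^ (2 * n)) w₀ = w₀ := by
      intro n
      induction n with
      | zero => rfl
      | succ n ih =>
        rw [show 2 * (n + 1) = 2 + 2 * n by ring, pow_add, MulAut.mul_apply, ih, pow_two,
          MulAut.mul_apply, ← hw₁, ← hw₂, e]
    obtain ⟨k, hk⟩ := b.hyp.odd_orderOf hφ₁
    have h1 := pow_orderOf_eq_one φ₁
    rw [hk, pow_succ'] at h1
    have h2 := congrArg (fun ψ : MulAut X => ψ w₀) h1
    simp only [MulAut.mul_apply, hpow, MulAut.one_apply] at h2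
    exact hw01 h2
  have hcover : ∀ v ∈ V, v = 1 ∨ v = w₀ ∨ v = w₁ ∨ v = w₂ := by
    intro v hv
    by_contra hcon
    simp only [not_or] at hcon
    have h5 : ({(⟨v, hv⟩ : V), ⟨1, V.one_mem⟩, ⟨w₀, hw₀⟩, ⟨w₁, b.inv _ hφ₁ _ hw₀⟩,
        ⟨w₂, b.inv _ hφ₁ _ (b.inv _ hφ₁ _ hw₀)⟩} : Set V).ncard ≤ 4 := (Set.ncard_le_card _).trans hV4
    rw [Set.ncard_insert_of_notMem, Set.ncard_insert_of_notMem, Set.ncard_insert_of_notMem,
      Set.ncard_pair] at h5
    · omega
    all_goals simp only [Set.mem_insert_iff, Set.mem_singleton_iff, ne_eq, Subtype.mk.injEq, not_or]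
    · exact fun e => hw12 e.symm
    · exact ⟨fun e => hw01 e.symm, fun e => hw02 e.symm⟩
    · exact ⟨fun e => hw₀1 e.symm, fun e => hw₁1 e.symm, fun e => hw₂1 e.symm⟩
    · exact ⟨hcon.1, hcon.2.1, hcon.2.2.1, hcon.2.2.2⟩
  have hw₃ : φ₁ w₂ = w₀ := by
    rcases hcover _ (b.inv _ hφ₁ _ (b.inv _ hφ₁ _ (b.inv _ hφ₁ _ hw₀))) with e | e | e | e
    · exact absurd (φ₁.injective (e.trans (map_one φ₁).symm)) hw₂1
    · exact e
    · exact absurd (φ₁.injective e) hw02
    · exact absurd (φ₁.injective e) hw12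
  have hne1 : ∀ z : X, z ∉ V → z ^ 2 ≠ 1 := by
    intro z hz e
    obtain ⟨φ, hφ, he⟩ := hsqφ z hz
    exact hw₀1 (φ.injective ((he.symm.trans e).trans (map_one φ).symm))
  have hunion : (Set.univ : Set (X ⧸ V)) = insert 1 (F w₀ ∪ F w₁ ∪ F w₂) := by
    refine (Set.eq_univ_of_forall fun q => ?_).symm
    obtain ⟨z, rfl⟩ := QuotientGroup.mk_surjective q
    by_cases hz : z ∈ V
    · exact Or.inl ((QuotientGroup.eq_one_iff z).2 hz)
    have hq : (z : X ⧸ V) ≠ 1 := fun e => hz ((QuotientGroup.eq_one_iff z).1 e)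
    rcases hcover _ (b.sq_mem z) with e | e | e | e
    · exact absurd e (hne1 z hz)
    · exact Or.inr (Or.inl (Or.inl ⟨hq, e⟩))
    · exact Or.inr (Or.inl (Or.inr ⟨hq, e⟩))
    · exact Or.inr (Or.inr ⟨hq, e⟩)
  have hcardu := congrArg Set.ncard hunion
  have hdj : ∀ {w w' : X}, w ≠ w' → Disjoint (F w) (F w') := fun hne =>
    Set.disjoint_left.2 fun q hq hq' => hne (hq.2.symm.trans hq'.2)
  rw [Set.ncard_univ, hn, hi, Set.ncard_insert_of_notMem (by
      rintro ((h | h) | h) <;> exact h.1 rfl),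
    Set.ncard_union_eq (Set.disjoint_union_left.2 ⟨hdj hw02.symm, hdj hw12.symm⟩),
    Set.ncard_union_eq (hdj hw01.symm)] at hcardu
  have e1 : (F w₀).ncard ≤ (F w₁).ncard := hF _ hφ₁ w₀
  have e2 : (F w₁).ncard ≤ (F w₂).ncard := hF _ hφ₁ w₁
  have e3 : (F w₂).ncard ≤ (F w₀).ncard := hw₃ ▸ hF _ hφ₁ w₂
  omega

end Small

theorem const_ne_one (b : Base A V) {v : X} (hv : ∀ x : X, x ∉ V → x ^ 2 = v) : v ≠ 1 := by
  intro hv1
  obtain ⟨x, hx⟩ := b.exists_not_mem
  obtain ⟨y, hy⟩ := b.exists_comm_ne hx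
  refine hy (b.commute_two x y ▸ ?_)
  have hall : ∀ z : X, z ^ 2 = 1 := fun z => by
    by_cases hz : z ∈ V
    · exact b.two z hz
    · rw [hv z hz, hv1]
  have h := b.mul_sq x y
  rw [hall, hall, hall, one_mul, one_mul] at h
  exact h.symm

theorem index_ne_eight (b : Base A V) : V.index ≠ 8 := by
  intro h8
  obtain ⟨v, hv⟩ := b.sq_const (Or.inr h8) (fun h => absurd h (by omega))
  have hv1 := b.const_ne_one hv
  obtain ⟨x, hx⟩ := b.exists_not_mem
  set S := V ⊔ Subgroup.zpowers x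
  have hS := b.card_adjoin le_rfl hx
  have hX := V.card_mul_index
  rw [h8] at hX
  have hpos : 0 < Nat.card V := Nat.card_pos
  obtain ⟨y, -, hy⟩ := exists_mem_not_mem (S := S) (H := ⊤) (by rw [Subgroup.card_top, hS, ← hX]; omega)
  have hS2 := b.card_adjoin le_sup_left hy
  obtain ⟨z, -, hz⟩ := exists_mem_not_mem (S := S ⊔ Subgroup.zpowers y) (H := ⊤)
    (by rw [Subgroup.card_top, hS2, hS, ← hX]; omega)
  have hyV : y ∉ V := fun h => hy (Subgroup.mem_sup_left h)
  have hzV : z ∉ V := fun h => hz (Subgroup.mem_sup_left (Subgroup.mem_sup_left h))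
  have hxS : x ∈ S := Subgroup.mem_sup_right (Subgroup.mem_zpowers x)
  have hyS : y ∈ S ⊔ Subgroup.zpowers y := Subgroup.mem_sup_right (Subgroup.mem_zpowers y)
  have hv2 : v * v = 1 := by rw [← hv x hx, ← pow_two]; exact b.two _ (b.sq_mem x)
  have key : ∀ p q, p ∉ V → q ∉ V → p * q ∉ V → ⁅q, p⁆ = v := fun p q hp hq hpq => by
    have h := b.mul_sq p q
    rw [hv _ hpq, hv p hp, hv q hq, hv2, one_mul] at h
    exact h.symm
  have hxy : x * y ∉ V := fun h => hy (by
    simpa using mul_mem (inv_mem hxS) ((le_sup_left : V ≤ S) h))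
  have hxz : x * z ∉ V := fun h => hz (by
    simpa using mul_mem (inv_mem (Subgroup.mem_sup_left hxS))
      (((le_sup_left : V ≤ S).trans le_sup_left : V ≤ S ⊔ Subgroup.zpowers y) h))
  have hyz : y * z ∉ V := fun h => hz (by
    simpa using mul_mem (inv_mem hyS)
      (((le_sup_left : V ≤ S).trans le_sup_left : V ≤ S ⊔ Subgroup.zpowers y) h))
  have hxyz : x * (y * z) ∉ V := fun h => hz (by
    have := mul_mem (inv_mem hyS) (mul_mem (inv_mem (Subgroup.mem_sup_left hxS))
      (((le_sup_left : V ≤ S).trans le_sup_left : V ≤ S ⊔ Subgroup.zpowers y) h))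
    simpa using this)
  have h := key x (y * z) hx hyz hxyz
  rw [b.mul_left, key x y hx hyV hxy, key x z hx hzV hxz, hv2] at h
  exact hv1 h.symm

theorem index_four (b : Base A V) (h4 : V.index = 4) : Nonempty (X ≃* QuaternionGroup 2) := by
  haveI : Fact (Nat.Prime 2) := ⟨Nat.prime_two⟩
  obtain ⟨x, hx⟩ := b.exists_not_mem
  set S := V ⊔ Subgroup.zpowers x
  have hS := b.card_adjoin le_rfl hx
  have hX := V.card_mul_index
  rw [h4] at hX
  have hpos : 0 < Nat.card V := Nat.card_pos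
  obtain ⟨y, -, hy⟩ := exists_mem_not_mem (S := S) (H := ⊤) (by rw [Subgroup.card_top, hS, ← hX]; omega)
  have hS2 := b.card_adjoin le_sup_left hy
  have htop : S ⊔ Subgroup.zpowers y = ⊤ := Subgroup.eq_top_of_card_eq _ (by rw [hS2, hS, ← hX]; ring)
  have hgen : ∀ g : X, g ∈ S ⊔ Subgroup.zpowers y := fun g => htop ▸ Subgroup.mem_top g
  have hall : ∀ p q : X, ⁅p, q⁆ ∈ Subgroup.zpowers ⁅x, y⁆ := by
    intro p q
    let W : Subgroup V := (Subgroup.zpowers ⁅x, y⁆).comap V.subtype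
    have hmem : ∀ a : X, ⁅a, x⁆ ∈ Subgroup.zpowers ⁅x, y⁆ → ⁅a, y⁆ ∈ Subgroup.zpowers ⁅x, y⁆ →
        ∀ g, ⁅a, g⁆ ∈ Subgroup.zpowers ⁅x, y⁆ := by
      intro a h1 h2 g
      have hle : S ⊔ Subgroup.zpowers y ≤ W.comap (b.commHom a) := by
        refine sup_le (sup_le (fun v hv => ?_) (Subgroup.zpowers_le.2 h1)) (Subgroup.zpowers_le.2 h2)
        show ⁅a, v⁆ ∈ Subgroup.zpowers ⁅x, y⁆
        rw [b.right_mem hv]; exact Subgroup.one_mem _
      exact hle (hgen g)
    refine hmem p ?_ ?_ q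
    · rw [b.commute_two p x]
      exact hmem x (by rw [commutatorElement_eq_one_iff_mul_comm.2 rfl]; exact Subgroup.one_mem _)
        (Subgroup.mem_zpowers _) p
    · rw [b.commute_two p y]
      exact hmem y (by rw [b.commute_two y x]; exact Subgroup.mem_zpowers _)
        (by rw [commutatorElement_eq_one_iff_mul_comm.2 rfl]; exact Subgroup.one_mem _) p
  have hV2 : Nat.card V = 2 := by
    have hle : V ≤ Subgroup.zpowers ⁅x, y⁆ := by
      rw [← b.commutator_eq, commutator_def]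
      exact Subgroup.commutator_le.2 fun p _ q _ => hall p q
    have h := Subgroup.card_le_of_le hle
    rw [Nat.card_zpowers] at h
    have ho : orderOf ⁅x, y⁆ ≤ 2 := orderOf_le_of_pow_eq_one (by omega) (b.two _ (b.comm x y))
    obtain ⟨l, hl⟩ := IsPGroup.iff_card.1 (b.hyp.isPGroup.to_subgroup V)
    rw [hl] at h ⊢
    have : l ≤ 1 := (Nat.pow_le_pow_iff_right (show 1 < 2 by omega)).1 (by rw [pow_one]; omega)
    rcases Nat.eq_zero_or_pos l with rfl | hl0
    · exfalso
      rw [pow_zero] at hl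
      obtain ⟨z, hz⟩ := b.exists_comm_ne hx
      exact hz ((Subgroup.mem_bot.1 ((Subgroup.eq_bot_of_card_eq V hl) ▸ b.comm x z)))
    · rw [show l = 1 by omega, pow_one]
  obtain ⟨v, hv⟩ := b.sq_const (Or.inl h4) (fun _ φ hφ w hw => b.fixed_of_card_two b.inv hV2 hφ hw)
  have hv1 := b.const_ne_one hv
  have hinvol : ∀ u : X, orderOf u = 2 → u = v := by
    intro u hu
    have huV : u ∈ V := by
      by_contra hn
      exact hv1 ((hv u hn).symm.trans (hu ▸ pow_orderOf_eq_one u))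
    obtain ⟨p, q, -, hpq⟩ := Nat.card_eq_two_iff.1 hV2
    have hvV : v ∈ V := hv x hx ▸ b.sq_mem x
    have e1 : (⟨u, huV⟩ : V) ∈ ({p, q} : Set V) := hpq ▸ Set.mem_univ _
    have e2 : (⟨v, hvV⟩ : V) ∈ ({p, q} : Set V) := hpq ▸ Set.mem_univ _
    have e3 : (1 : V) ∈ ({p, q} : Set V) := hpq ▸ Set.mem_univ _
    simp only [Set.mem_insert_iff, Set.mem_singleton_iff] at e1 e2 e3
    have hu1 : u ≠ 1 := fun e => by rw [e, orderOf_one] at hu; omega
    rcases e1 with e1 | e1 <;> rcases e2 with e2 | e2 <;> rcases e3 with e3 | e3 <;>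
      first
        | exact congrArg Subtype.val (e1.trans e2.symm)
        | exact absurd (congrArg Subtype.val (e1.trans e3.symm)) hu1
        | exact absurd (congrArg Subtype.val (e2.trans e3.symm)) hv1
  rcases CfsgLib.TwoGroup.cyclic_or_quaternion_frame b.hyp.isPGroup
    (fun p q hp hq => (hinvol p hp).trans (hinvol q hq).symm) with hcyc | ⟨n, -, hn, ⟨F⟩⟩
  · exact absurd ⟨⟨fun p q => by haveI := hcyc; exact IsMulCommutative.is_comm.comm p q⟩⟩ b.hyp.nonabelian
  · rw [← hX, hV2] at hn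
    have hn2 : n = 2 := by
      have h3 : (2 : ℕ) ^ 3 = 2 ^ (n + 1) := by omega
      have := Nat.pow_right_injective le_rfl h3
      omega
    subst hn2
    simpa using F.nonempty_mulEquiv_quaternion_two_pow (by omega)

theorem index_sixteen_four (b : Base A V) (h16 : V.index = 16) (hV : Nat.card V = 4) :
    Cfsg.IsSpecial 2 X ∧ Nat.card X = 64 ∧ Nat.card {x : X // orderOf x = 2} = 3 ∧
      ∀ x : X, orderOf x = 2 → x ∈ Subgroup.center X := by
  have hiff : ∀ u : X, orderOf u = 2 ↔ u ∈ V ∧ u ≠ 1 := fun u =>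
    ⟨fun h => ⟨b.no_involution hV (h ▸ pow_orderOf_eq_one u),
      fun e => by rw [e, orderOf_one] at h; omega⟩,
    fun h => by haveI : Fact (Nat.Prime 2) := ⟨Nat.prime_two⟩; exact orderOf_eq_prime (b.two u h.1) h.2⟩
  refine ⟨b.isSpecial, by rw [← V.card_mul_index, h16, hV], ?_,
    fun u hu => b.eq_center ▸ ((hiff u).1 hu).1⟩
  have : {x : X | orderOf x = 2} = (V : Set X) \ {1} := by
    ext u; simp [hiff u]
  rw [show Nat.card {x : X // orderOf x = 2} = ({x : X | orderOf x = 2} : Set X).ncard from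
    (Nat.card_coe_set_eq _), this, Set.ncard_diff_singleton_of_mem V.one_mem]
  rw [show (V : Set X).ncard = Nat.card V from (Nat.card_coe_set_eq _).symm, hV]

theorem index_sixteen_two (b : Base A V) (h16 : V.index = 16) (hV : Nat.card V = 2) :
    Cfsg.IsExtraspecial 2 X ∧ Nat.card X = 32 ∧ Nat.card {x : X // orderOf x = 2} = 11 := by
  haveI : Fact (Nat.Prime 2) := ⟨Nat.prime_two⟩
  have hX : Nat.card X = 32 := by rw [← V.card_mul_index, h16, hV]
  refine ⟨⟨b.isSpecial, b.eq_center ▸ hV⟩, hX, ?_⟩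
  obtain ⟨v, hv, hv1⟩ := (Subgroup.bot_or_exists_ne_one V).resolve_left
    (fun h => by rw [h, Subgroup.card_bot] at hV; omega)
  have hV1 : ∀ w ∈ V, w = 1 ∨ w = v := by
    intro w hw
    obtain ⟨p, q, -, hpq⟩ := Nat.card_eq_two_iff.1 hV
    have e1 : (⟨w, hw⟩ : V) ∈ ({p, q} : Set V) := hpq ▸ Set.mem_univ _
    have e2 : (⟨v, hv⟩ : V) ∈ ({p, q} : Set V) := hpq ▸ Set.mem_univ _
    have e3 : (1 : V) ∈ ({p, q} : Set V) := hpq ▸ Set.mem_univ _
    simp only [Set.mem_insert_iff, Set.mem_singleton_iff] at e1 e2 e3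
    rcases e1 with e1 | e1 <;> rcases e2 with e2 | e2 <;> rcases e3 with e3 | e3 <;>
      first
        | exact Or.inr (congrArg Subtype.val (e1.trans e2.symm))
        | exact Or.inl (congrArg Subtype.val (e1.trans e3.symm))
        | exact absurd (congrArg Subtype.val (e2.trans e3.symm)) hv1
  -- a singular element
  obtain ⟨u, huV, hu⟩ : ∃ u : X, u ∉ V ∧ u ^ 2 = 1 := by
    obtain ⟨x, hx⟩ := b.exists_not_mem
    have hS := b.card_adjoin le_rfl hx
    have hC := b.card_le_cent_mul x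
    obtain ⟨y, hy, hyS⟩ := exists_mem_not_mem (S := V ⊔ Subgroup.zpowers x) (H := b.cent x)
      (by rw [hS, hV]; rw [hX, hV] at hC; omega)
    by_cases hx2 : x ^ 2 = 1
    · exact ⟨x, hx, hx2⟩
    by_cases hy2 : y ^ 2 = 1
    · exact ⟨y, fun h => hyS (Subgroup.mem_sup_left h), hy2⟩
    refine ⟨x * y, fun h => hyS ?_, ?_⟩
    · simpa using mul_mem (inv_mem (Subgroup.mem_sup_right (Subgroup.mem_zpowers x) :
        x ∈ V ⊔ Subgroup.zpowers x)) (Subgroup.mem_sup_left h)
    · rw [b.mul_sq_of_comm (b.mem_cent.1 hy), (hV1 _ (b.sq_mem x)).resolve_left hx2,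
        (hV1 _ (b.sq_mem y)).resolve_left hy2, ← pow_two, b.two v hv]
  set C := b.cent u with hC
  have hCV : V ≤ C := b.le_cent u
  have hCcard : Nat.card C = 16 := by
    have h1 := b.card_le_cent_mul u
    rw [hX, hV, ← hC] at h1
    have hne : C ≠ ⊤ := fun e => huV (b.eq_center ▸ Subgroup.mem_center_iff.2 fun g =>
      (commutatorElement_eq_one_iff_mul_comm.1 (b.mem_cent.1 (e ▸ Subgroup.mem_top g : g ∈ C))).symm)
    have h2 : Nat.card C < Nat.card X := lt_of_le_of_ne (Subgroup.card_le_card_group _)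
      fun e => hne (Subgroup.eq_top_of_card_eq _ e)
    obtain ⟨k, hk⟩ := IsPGroup.iff_card.1 (b.hyp.isPGroup.to_subgroup C)
    rw [hX] at h2
    rw [hk] at h1 h2 ⊢
    have : 4 ≤ k := (Nat.pow_le_pow_iff_right (show 1 < 2 by omega)).1 (by omega)
    have : k < 5 := (Nat.pow_lt_pow_iff_right (show 1 < 2 by omega)).1 (by omega)
    rw [show k = 4 by omega]; norm_num
  set J : Set X := {g | g ∉ C ∧ g ^ 2 = 1}
  set J' : Set X := {g | g ∉ C ∧ g ^ 2 ≠ 1}
  have huC : u ∈ C := b.self_mem_cent u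
  have hflip : ∀ g, g ∉ C → (g * u) ^ 2 = g ^ 2 * v := by
    intro g hg
    rw [b.mul_sq, hu, mul_one, (hV1 _ (b.comm u g)).resolve_left fun h => hg (b.mem_cent.2 h)]
  have hJJ : J.ncard = J'.ncard := by
    refine le_antisymm (Set.ncard_le_ncard_of_injOn (· * u) ?_ (fun p _ q _ h => mul_right_cancel h))
      (Set.ncard_le_ncard_of_injOn (· * u) ?_ (fun p _ q _ h => mul_right_cancel h))
    · rintro g ⟨hg, hg2⟩
      refine ⟨fun h => hg (by simpa using mul_mem h (inv_mem huC)), ?_⟩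
      rw [hflip g hg, hg2, one_mul]; exact hv1
    · rintro g ⟨hg, hg2⟩
      refine ⟨fun h => hg (by simpa using mul_mem h (inv_mem huC)), ?_⟩
      rw [hflip g hg, (hV1 _ (b.sq_mem g)).resolve_left hg2, ← pow_two, b.two v hv]
  have hJsum : J.ncard + J'.ncard = 16 := by
    rw [← Set.ncard_union_eq (Set.disjoint_left.2 fun g h h' => h'.2 h.2),
      show J ∪ J' = (C : Set X)ᶜ by
        ext g; simp only [J, J', Set.mem_union, Set.mem_setOf_eq, Set.mem_compl_iff, SetLike.mem_coe]; tauto]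
    have h := Set.ncard_add_ncard_compl (C : Set X)
    rw [show (C : Set X).ncard = Nat.card C from (Nat.card_coe_set_eq _).symm, hCcard, hX] at h
    omega
  have hset : {x : X | orderOf x = 2} = ({v, u, u * v} : Set X) ∪ J := by
    ext g
    simp only [Set.mem_setOf_eq, Set.mem_union, Set.mem_insert_iff, Set.mem_singleton_iff, J]
    constructor
    · intro h
      have hg2 : g ^ 2 = 1 := h ▸ pow_orderOf_eq_one g
      have hg1 : g ≠ 1 := fun e => by rw [e, orderOf_one] at h; omega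
      by_cases hgC : g ∈ C
      · rcases b.not_two_involutions huV hu hg2 (b.mem_cent.1 hgC) with hgV | hgV
        · exact Or.inl (Or.inl ((hV1 g hgV).resolve_left hg1))
        · rcases hV1 _ hgV with e | e
          · exact Or.inl (Or.inr (Or.inl (inv_mul_eq_one.1 e).symm))
          · exact Or.inl (Or.inr (Or.inr (by rw [← e, mul_inv_cancel_left])))
      · exact Or.inr ⟨hgC, hg2⟩
    · rintro ((rfl | rfl | rfl) | ⟨hgC, hg2⟩)
      · exact orderOf_eq_prime (b.two _ hv) hv1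
      · exact orderOf_eq_prime hu (fun e => huV (e ▸ V.one_mem))
      · refine orderOf_eq_prime (by rw [b.mul_sq_mem hv, hu]) fun e => huV ?_
        rw [eq_inv_of_mul_eq_one_left e]; exact inv_mem hv
      · exact orderOf_eq_prime hg2 (fun e => hgC (e ▸ C.one_mem))
  have hdis : Disjoint ({v, u, u * v} : Set X) J := Set.disjoint_left.2 fun g h h' => h'.1 (by
    simp only [Set.mem_insert_iff, Set.mem_singleton_iff] at h
    rcases h with rfl | rfl | rfl
    exacts [hCV hv, huC, mul_mem huC (hCV hv)])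
  rw [show Nat.card {x : X // orderOf x = 2} = ({x : X | orderOf x = 2} : Set X).ncard from
    (Nat.card_coe_set_eq _), hset, Set.ncard_union_eq hdis, Set.ncard_insert_of_notMem,
    Set.ncard_pair]
  · omega
  · exact fun e => hv1 (mul_eq_left.1 e.symm)
  · simp only [Set.mem_insert_iff, Set.mem_singleton_iff, not_or]
    exact ⟨fun e => huV (e ▸ hv), fun e => huV (by
      rw [mul_eq_right.1 e.symm]; exact V.one_mem)⟩

/-- The three cases. -/
theorem shape (b : Base A V) : Shape X := by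
  haveI : Fact (Nat.Prime 2) := ⟨Nat.prime_two⟩
  obtain ⟨k, hk⟩ := b.hyp.isPGroup.index V
  have hk4 : k ≤ 4 := (Nat.pow_le_pow_iff_right (show 1 < 2 by omega)).1 (hk ▸ b.index_le)
  obtain ⟨x, hx⟩ := b.exists_not_mem
  have hk2 : 2 ≤ k := by
    by_contra hlt
    have hi : V.index = 2 ∨ V.index = 1 := by
      rcases (show k = 1 ∨ k = 0 by omega) with rfl | rfl <;> simp [hk]
    obtain ⟨y, hy⟩ := b.exists_comm_ne hx
    have hi2 : V.index = 2 := hi.resolve_right b.index_ne_one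
    by_cases hyV : y ∈ V
    · exact hy (b.right_mem hyV x)
    have hxy : x⁻¹ * y ∈ V := (Subgroup.mul_mem_iff_of_index_two hi2).2
      ⟨fun h => absurd (inv_mem_iff.1 h) hx, fun h => absurd h hyV⟩
    exact hy (by
      rw [b.comm_congr (x := x) (y := x) (by rw [inv_mul_cancel]; exact V.one_mem) hxy,
        commutatorElement_eq_one_iff_mul_comm.2 rfl])
  rcases (show k = 2 ∨ k = 3 ∨ k = 4 by omega) with rfl | rfl | rfl
  · exact Or.inl (b.index_four hk)
  · exact absurd hk b.index_ne_eight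
  · obtain ⟨l, hl⟩ := IsPGroup.iff_card.1 (b.hyp.isPGroup.to_subgroup V)
    have hl2 : l ≤ 2 := (Nat.pow_le_pow_iff_right (show 1 < 2 by omega)).1 (hl ▸ b.card_le)
    have hl0 : l ≠ 0 := fun e => by
      rw [e, pow_zero] at hl
      obtain ⟨z, hz⟩ := b.exists_comm_ne hx
      exact hz ((Subgroup.mem_bot.1 ((Subgroup.eq_bot_of_card_eq V hl) ▸ b.comm x z)))
    rcases (show l = 1 ∨ l = 2 by omega) with rfl | rfl
    · exact Or.inr (Or.inr (b.index_sixteen_two hk hl))
    · exact Or.inr (Or.inl (b.index_sixteen_four hk hl))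

end Base

end CfsgLib.ScnThreeFree
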