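import Cfsg.Agent.ScnThreeFree.Endgame
import Cfsg.Agent.ScnThreeFree.Conclusion

/-!
From the hypotheses to the base case.
-/

set_option autoImplicit false

open scoped commutatorElement

namespace CfsgLib.ScnThreeFree

variable {X : Type*} [Group X] [Finite X] {A : Subgroup (MulAut X)}

omit [Finite X] in
theorem commutator_mem_of_sq {S : Subgroup X} (h : ∀ x : X, x ^ 2 ∈ S) (x y : X) : ⁅x, y⁆ ∈ S := by
  rw [show ⁅x, y⁆ = x ^ 2 * (x⁻¹ * y) ^ 2 * (y⁻¹) ^ 2 by
    simp [commutatorElement_def, pow_two]; group]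
  exact mul_mem (mul_mem (h _) (h _)) (h _)

namespace Hyp

variable (h : Hyp A) {C : Subgroup X} (hC : PGroup.IsCriticalSubgroup 2 C)

include hC

omit [Finite X] in
theorem sq_mem_of_central (hZ : Subgroup.centralizer (C : Set X) ≤ Subgroup.center X) (x : X) :
    x ^ 2 ∈ Subgroup.centralizer (C : Set X) := by
  refine Subgroup.mem_centralizer_iff.2 fun c hc => ?_
  have hw := Subgroup.mem_center_iff.1 (hZ (hC.commutator_mem x c hc))
  have hs := Subgroup.mem_center_iff.1 (hZ (hC.pow_mem c hc))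
  have e1 : ⁅x ^ 2, c⁆ = ⁅x, c⁆ * ⁅x, c⁆ := by
    rw [show ⁅x ^ 2, c⁆ = x * ⁅x, c⁆ * x⁻¹ * ⁅x, c⁆ by simp [commutatorElement_def, pow_two]; group,
      hw x, mul_inv_cancel_right]
  have e2 : ⁅x, c ^ 2⁆ = ⁅x, c⁆ * ⁅x, c⁆ := by
    rw [show ⁅x, c ^ 2⁆ = ⁅x, c⁆ * (c * ⁅x, c⁆ * c⁻¹) by simp [commutatorElement_def, pow_two]; group,
      hw c, mul_inv_cancel_right]
  rw [commutatorElement_eq_one_iff_mul_comm.2 (hs x)] at e2
  rw [← e2] at e1
  exact (commutatorElement_eq_one_iff_mul_comm.1 e1).symm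

theorem center_le : Subgroup.center X ≤ Subgroup.centralizer (C : Set X) :=
  Subgroup.center_le_centralizer _

include h

/-- The critical centre is central and of exponent 2. -/
theorem base_of_central (hZ : Subgroup.centralizer (C : Set X) ≤ Subgroup.center X)
    (h2 : ∀ z ∈ Subgroup.centralizer (C : Set X), z ^ 2 = 1) :
    Base A (Subgroup.centralizer (C : Set X)) :=
  ⟨h, le_antisymm hZ (Subgroup.center_le_centralizer _), h2, sq_mem_of_central hC hZ,
    commutator_mem_of_sq (sq_mem_of_central hC hZ)⟩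

theorem base_of_fixed (hfix : ∀ φ ∈ A, ∀ z ∈ Subgroup.centralizer (C : Set X), φ z = z) :
    Base A (Subgroup.centralizer (C : Set X)) := by
  haveI := hC.characteristic
  set Z := Subgroup.centralizer (C : Set X)
  have hZ : Z ≤ Subgroup.center X := h.le_center_of_fixed hfix
  have hsq : ∀ x : X, x ^ 2 ∈ Z := sq_mem_of_central hC hZ
  have hcm := commutator_mem_of_sq hsq
  have hcen : ∀ a ∈ Z, ∀ g : X, g * a = a * g := fun a ha => Subgroup.mem_center_iff.1 (hZ ha)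
  let S : Subgroup X :=
    { carrier := {z | z ∈ Z ∧ z ^ 2 = 1}
      one_mem' := ⟨Z.one_mem, one_pow 2⟩
      mul_mem' := fun {a b} ha hb => ⟨mul_mem ha.1 hb.1, by
        rw [(show Commute a b from hcen b hb.1 a).mul_pow, ha.2, hb.2, one_mul]⟩
      inv_mem' := fun {a} ha => ⟨inv_mem ha.1, by rw [inv_pow, ha.2, inv_one]⟩ }
  have hD : commutator X ≤ S := by
    rw [commutator_def]
    refine Subgroup.commutator_le.2 fun x _ y _ => ⟨hcm x y, ?_⟩
    have e : ⁅x ^ 2, y⁆ = ⁅x, y⁆ * ⁅x, y⁆ := by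
      rw [show ⁅x ^ 2, y⁆ = x * ⁅x, y⁆ * x⁻¹ * ⁅x, y⁆ by simp [commutatorElement_def, pow_two]; group,
        hcen _ (hcm x y) x, mul_inv_cancel_right]
    rw [pow_two, ← e, commutatorElement_eq_one_iff_mul_comm]
    exact (hcen _ (hsq x) y).symm
  have hDc : ∀ x y : X, ⁅x, y⁆ ∈ commutator X := fun x y =>
    Subgroup.commutator_mem_commutator (Subgroup.mem_top x) (Subgroup.mem_top y)
  let g : X →* X ⧸ commutator X :=
    MonoidHom.mk' (fun x => ((x ^ 2 : X) : X ⧸ commutator X)) fun x y => by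
      have hc : Commute (x : X ⧸ commutator X) (y : X ⧸ commutator X) := by
        rw [← commutatorElement_eq_one_iff_commute]
        exact (QuotientGroup.eq_one_iff _).2 (hDc x y)
      simp only [QuotientGroup.mk_pow, QuotientGroup.mk_mul]
      exact hc.mul_pow 2
  have hsqD : ∀ x : X, x ^ 2 ∈ commutator X := fun x => (QuotientGroup.eq_one_iff _).1
    (h.hom_eq_one g (fun φ hφ y => by
      show (((φ y) ^ 2 : X) : X ⧸ commutator X) = ((y ^ 2 : X) : X ⧸ commutator X)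
      rw [← map_pow, hfix φ hφ _ (hsq y)]) x)
  refine h.base_of_central hC hZ fun z hz => (hD ?_).2
  exact h.mem_of_fixed (Hyp.inv_of_characteristic inferInstance) hDc fun φ hφ => by
    rw [hfix φ hφ z hz, inv_mul_cancel]; exact one_mem _

theorem exists_base : ∃ V : Subgroup X, Base A V := by
  classical
  haveI : Fact (Nat.Prime 2) := ⟨Nat.prime_two⟩
  haveI := hC.characteristic
  set Z := Subgroup.centralizer (C : Set X) with hZdef
  have hZn : Z.Normal := inferInstance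
  have hZinv : Inv A Z := Hyp.inv_of_characteristic inferInstance
  have hZcomm : ∀ a ∈ Z, ∀ b ∈ Z, a * b = b * a := fun a ha b hb =>
    (Subgroup.mem_centralizer_iff.1 hb) a (hC.centralizer_le ha)
  have hZC : ∀ a ∈ Z, ∀ c ∈ C, a * c = c * a := fun a ha c hc =>
    ((Subgroup.mem_centralizer_iff.1 ha) c hc).symm
  by_cases hel : ∀ z ∈ Z, z ^ 2 = 1
  · exact ⟨Z, h.base_of_central hC (h.le_center_of_elementary hZinv hZcomm hel) hel⟩
  by_cases hfix : ∀ φ ∈ A, ∀ z ∈ Z, φ z = z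
  · exact ⟨Z, h.base_of_fixed hC hfix⟩
  let V : Subgroup X :=
    { carrier := {z | z ∈ Z ∧ z ^ 2 = 1}
      one_mem' := ⟨Z.one_mem, one_pow 2⟩
      mul_mem' := fun {a b} ha hb => ⟨mul_mem ha.1 hb.1, by
        rw [(show Commute a b from hZcomm a ha.1 b hb.1).mul_pow, ha.2, hb.2, one_mul]⟩
      inv_mem' := fun {a} ha => ⟨inv_mem ha.1, by rw [inv_pow, ha.2, inv_one]⟩ }
  have hVinv : Inv A V := fun φ hφ v hv =>
    ⟨hZinv φ hφ v hv.1, by rw [← map_pow, hv.2, map_one]⟩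
  haveI hVn : V.Normal := ⟨fun v hv g => ⟨hZn.conj_mem v hv.1 g, by rw [conj_pow, hv.2]; group⟩⟩
  have hVc : V ≤ Subgroup.center X :=
    h.le_center_of_elementary hVinv (fun a ha b hb => hZcomm a ha.1 b hb.1) fun a ha => ha.2
  have hV4 : Nat.card V ≤ 4 :=
    h.rank V hVn (fun a ha b hb => hZcomm a ha.1 b hb.1) fun a ha => ha.2
  have hVcen : ∀ v ∈ V, ∀ g : X, g * v = v * g := fun v hv => Subgroup.mem_center_iff.1 (hVc hv)
  -- some element of `A` moves `V`
  obtain ⟨φ, hφ, v₀, hv₀, hmove⟩ : ∃ φ ∈ A, ∃ v ∈ V, φ v ≠ v := by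
    by_contra hall
    push Not at hall
    apply hfix
    intro φ hφ z hz
    obtain ⟨k, hk⟩ := h.isPGroup z
    induction k generalizing z with
    | zero => rw [pow_zero, pow_one] at hk; rw [hk, map_one]
    | succ k ih =>
      have hs := ih (z ^ 2) (pow_mem hz 2) (by rw [← pow_mul, ← pow_succ']; exact hk)
      have hwV : z⁻¹ * φ z ∈ V := ⟨mul_mem (inv_mem hz) (hZinv φ hφ z hz), by
        rw [(show Commute z⁻¹ (φ z) from hZcomm _ (inv_mem hz) _ (hZinv φ hφ z hz)).mul_pow, inv_pow,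
          ← map_pow, hs, inv_mul_cancel]⟩
      exact h.fixed_of_step hφ (hall φ hφ _ hwV) hwV.2
  have hfp : ∀ v ∈ V, φ v = v → v = 1 := by
    intro v hv hvfix
    by_contra hv1
    have hv01 : v₀ ≠ 1 := fun e => hmove (by rw [e, map_one])
    have hne : v ≠ v₀ := fun e => hmove (e ▸ hvfix)
    rcases cover_of_card_le_four hV4 (fun w hw => hw.2) hv hv₀ (hVinv φ hφ v₀ hv₀) hv1 hv01 hne with
      e | e | e | e
    · exact hv01 (φ.injective (e.trans (map_one φ).symm))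
    · exact hne (φ.injective (hvfix.trans e.symm))
    · exact hmove e
    · refine hmove (h.fixed_of_step hφ ?_ ?_)
      · rw [e, hVcen v₀ hv₀ v, inv_mul_cancel_left, hvfix]
      · rw [e, hVcen v₀ hv₀ v, inv_mul_cancel_left]; exact hv.2
  have hex : ∃ m, ∀ z ∈ Z, z ^ 2 ^ m = 1 := by
    obtain ⟨k, hk⟩ := IsPGroup.iff_card.1 h.isPGroup
    exact ⟨k, fun z _ => hk ▸ pow_card_eq_one'⟩
  set m := Nat.find hex with hm
  have hm1 : ∀ z ∈ Z, z ^ 2 ^ m = 1 := Nat.find_spec hex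
  have hm2 : 2 ≤ m := by
    by_contra hlt
    refine hel fun z hz => ?_
    have h' := hm1 z hz
    rcases (show m = 0 ∨ m = 1 by omega) with e | e
    · rw [e, pow_zero, pow_one] at h'; rw [h', one_pow]
    · rwa [e, pow_one] at h'
  have d : Deep A Z V m φ :=
    ⟨h, hZn, hZinv, hZcomm, fun v => Iff.rfl, hVcen, hm2, hm1, by
      have := Nat.find_min hex (show m - 1 < Nat.find hex by omega)
      push Not at this
      exact this, hφ, hfp⟩
  refine ⟨V, d.base fun g hg => ?_⟩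
  -- `C = Z`
  suffices hCZ : ∀ c ∈ C, c ∈ Z from Subgroup.mem_centralizer_iff.2 fun c hc => (hg c (hCZ c hc)).symm
  have hpiV : ∀ v ∈ V, v ^ 2 ^ (m - 1) = 1 := fun v hv => by
    rw [show m - 1 = (m - 2) + 1 by omega, pow_succ', pow_mul, hv.2, one_pow]
  have hCV : ∀ c ∈ C, ∀ e ∈ C, ⁅c, e⁆ ∈ V := by
    intro c hc e he
    have hw := hC.commutator_mem c e he
    refine ⟨hw, ?_⟩
    have e1 : ⁅c, e ^ 2⁆ = ⁅c, e⁆ * (e * ⁅c, e⁆ * e⁻¹) := by
      simp [commutatorElement_def, pow_two]; group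
    rw [commutatorElement_eq_one_iff_mul_comm.2 (hZC _ (hC.pow_mem e he) c hc).symm,
      ← hZC _ hw e he, mul_inv_cancel_right, ← pow_two] at e1
    exact e1.symm
  have hinjC : ∀ e ∈ C, (e ^ 2) ^ 2 ^ (m - 1) = 1 → e ∈ Z := by
    intro e he hp
    have he2 : e ^ 2 ∈ Z := hC.pow_mem e he
    obtain ⟨z, hz, hzz⟩ := d.exists_sq_of_pi he2 hp
    have hu2 : (e * z⁻¹) ^ 2 = 1 := by
      rw [(show Commute e z⁻¹ from (hZC _ (inv_mem hz) e he).symm).mul_pow, inv_pow, hzz, mul_inv_cancel]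
    have huC : e * z⁻¹ ∈ C := mul_mem he (inv_mem (hC.centralizer_le hz))
    have huV : e * z⁻¹ ∈ V := h.mem_of_involution d.four_le (fun v hv => hv.2) hVcen hu2 fun g => by
      set u := e * z⁻¹ with hu
      have hw : ⁅g, u⁆ ∈ Z := hC.commutator_mem g u huC
      refine ⟨hw, ?_⟩
      have e1 : (⁅g, u⁆ * u) ^ 2 = 1 := by
        rw [show ⁅g, u⁆ * u = g * u * g⁻¹ by simp [commutatorElement_def], conj_pow, hu2]; group
      rwa [(show Commute ⁅g, u⁆ u from hZC _ hw u huC).mul_pow, hu2, mul_one] at e1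
    rw [show e = e * z⁻¹ * z by rw [inv_mul_cancel_right]]
    exact mul_mem huV.1 hz
  have hpimul : ∀ c ∈ C, ∀ e ∈ C, ((c * e) ^ 2) ^ 2 ^ (m - 1) =
      (c ^ 2) ^ 2 ^ (m - 1) * (e ^ 2) ^ 2 ^ (m - 1) := by
    intro c hc e he
    have hw := hCV e he c hc
    have h1 : (c * e) ^ 2 = c ^ 2 * e ^ 2 * ⁅e, c⁆ := by
      calc (c * e) ^ 2 = c * (⁅e, c⁆ * (c * e)) * e := by simp [pow_two, commutatorElement_def]; group
        _ = c * ((c * e) * ⁅e, c⁆) * e := by rw [hVcen _ hw]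
        _ = c * c * (e * (⁅e, c⁆ * e)) := by group
        _ = c * c * (e * (e * ⁅e, c⁆)) := by rw [hVcen _ hw e]
        _ = c ^ 2 * e ^ 2 * ⁅e, c⁆ := by simp only [pow_two, mul_assoc]
    have hcZ : c ^ 2 ∈ Z := hC.pow_mem c hc
    have heZ : e ^ 2 ∈ Z := hC.pow_mem e he
    rw [h1, (show Commute (c ^ 2 * e ^ 2) ⁅e, c⁆ from hVcen _ hw _).mul_pow,
      (show Commute (c ^ 2) (e ^ 2) from hZcomm _ hcZ _ heZ).mul_pow, hpiV _ hw, mul_one]
  intro c hc
  by_contra hcZ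
  apply hcZ
  have hφC : ∀ e ∈ C, φ e ∈ C := fun e he => Hyp.inv_of_characteristic inferInstance φ hφ e he
  set a := (c ^ 2) ^ 2 ^ (m - 1) with ha
  have haV : a ∈ V := d.pi_mem (hC.pow_mem c hc)
  have ha1 : a ≠ 1 := fun e => hcZ (hinjC c hc e)
  have haa : a * a = 1 := pow_two a ▸ haV.2
  have hφc := hφC c hc
  have hb : ((φ c) ^ 2) ^ 2 ^ (m - 1) = φ a := by rw [ha, map_pow, map_pow]
  -- `c` commutes with `φ c`
  have hcd : ⁅c, φ c⁆ = 1 := by
    set w := ⁅c, φ c⁆ with hw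
    have hwV : w ∈ V := hCV c hc _ hφc
    refine hfp w hwV ?_
    have hprod : c * φ c * φ (φ c) ∈ Z := by
      refine hinjC _ (mul_mem (mul_mem hc hφc) (hφC _ hφc)) ?_
      rw [hpimul _ (mul_mem hc hφc) _ (hφC _ hφc), hpimul _ hc _ hφc, hb, ← ha,
        show ((φ (φ c)) ^ 2) ^ 2 ^ (m - 1) = φ (φ a) by rw [ha, map_pow, map_pow, map_pow, map_pow],
        d.phi_phi haV, ← pow_two]
      exact (mul_mem haV (hVinv φ hφ a haV) : a * φ a ∈ V).2
    set z := c * φ c * φ (φ c) with hz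
    have hd : φ (φ c) = (c * φ c)⁻¹ * z := by rw [hz, inv_mul_cancel_left]
    rw [hw, map_commutatorElement, hd,
      show ⁅φ c, (c * φ c)⁻¹ * z⁆ = ⁅φ c, (c * φ c)⁻¹⁆ * ((c * φ c)⁻¹ * ⁅φ c, z⁆ * (c * φ c)) by
        simp [commutatorElement_def]; group,
      commutatorElement_eq_one_iff_mul_comm.2 (hZC z hprod _ hφc).symm, mul_one, inv_mul_cancel, mul_one]
    calc ⁅φ c, (c * φ c)⁻¹⁆ = (φ c * c)⁻¹ * (⁅c, φ c⁆ * (φ c * c)) := by
          simp [commutatorElement_def, mul_assoc]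
      _ = ⁅c, φ c⁆ := by rw [← hVcen _ hwV (φ c * c), inv_mul_cancel_left]
  refine Subgroup.mem_centralizer_iff.2 fun e he => ?_
  have hcomm1 : c * φ c = φ c * c := commutatorElement_eq_one_iff_mul_comm.1 hcd
  have hpe : (e ^ 2) ^ 2 ^ (m - 1) ∈ V := d.pi_mem (hC.pow_mem e he)
  have of_mem : ∀ f ∈ C, f * c = c * f → f * e ∈ Z → e * c = c * e := by
    intro f hf hfc hfe
    have h1 := hZC _ hfe c hc
    rw [mul_assoc] at h1
    have h2 : f * (e * c) = f * (c * e) := by rw [h1, ← mul_assoc, ← hfc, mul_assoc]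
    exact mul_left_cancel h2
  rcases d.cover haV ha1 hpe with e0 | e0 | e0 | e0
  · exact hZC e (hinjC e he e0) c hc
  · exact of_mem c hc rfl (hinjC _ (mul_mem hc he) (by rw [hpimul c hc e he, e0, ← ha, haa]))
  · exact of_mem (φ c) hφc hcomm1.symm (hinjC _ (mul_mem hφc he) (by
      rw [hpimul _ hφc e he, e0, hb, ← pow_two]
      exact (hVinv φ hφ a haV).2))
  · refine of_mem (c * φ c) (mul_mem hc hφc) (by rw [mul_assoc, ← hcomm1]) (hinjC _ (mul_mem (mul_mem hc hφc) he) ?_)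
    rw [hpimul _ (mul_mem hc hφc) e he, e0, hpimul c hc _ hφc, hb, ← ha, d.phi_phi haV, ← pow_two]
    exact (mul_mem haV (hVinv φ hφ a haV) : a * φ a ∈ V).2

end Hyp

/-- The classification. -/
theorem Hyp.shape (h : Hyp A) : Shape X := by
  haveI : Fact (Nat.Prime 2) := ⟨Nat.prime_two⟩
  obtain ⟨C, hC⟩ := PGroup.exists_criticalSubgroup h.isPGroup
  obtain ⟨V, b⟩ := h.exists_base hC
  exact b.shape

end CfsgLib.ScnThreeFree
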