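import Cfsg.Agent.ScnThreeFree.Squares

/-!
`X / Z(X)` has order at most 16.
-/

set_option autoImplicit false

open scoped commutatorElement

namespace CfsgLib.ScnThreeFree

variable {X : Type*} [Group X]

theorem exists_mem_not_mem {S H : Subgroup X} [Finite X] (h : Nat.card S < Nat.card H) :
    ∃ g ∈ H, g ∉ S := by
  by_contra hn
  push Not at hn
  exact absurd (Subgroup.card_le_of_le hn) h.not_ge

namespace Base

variable {A : Subgroup (MulAut X)} {V : Subgroup X}

/-- The homomorphism `g ↦ ⁅a, g⁆`. -/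
noncomputable def commHom (b : Base A V) (a : X) : X →* V :=
  MonoidHom.mk' (fun g => ⟨⁅a, g⁆, b.comm a g⟩) fun g g' => Subtype.ext (b.mul_right a g g')

theorem commHom_apply (b : Base A V) (a g : X) : (b.commHom a g : X) = ⁅a, g⁆ := rfl

/-- The centraliser of `a`, as a kernel. -/
noncomputable def cent (b : Base A V) (a : X) : Subgroup X := (b.commHom a).ker

theorem mem_cent (b : Base A V) {a g : X} : g ∈ b.cent a ↔ ⁅a, g⁆ = 1 := by
  rw [cent, MonoidHom.mem_ker, Subtype.ext_iff, commHom_apply]; rfl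

theorem le_cent (b : Base A V) (a : X) : V ≤ b.cent a := fun _ hv => b.mem_cent.2 (b.right_mem hv a)

theorem self_mem_cent (b : Base A V) (a : X) : a ∈ b.cent a :=
  b.mem_cent.2 (commutatorElement_eq_one_iff_mul_comm.2 rfl)

theorem cent_symm (b : Base A V) {a g : X} (h : g ∈ b.cent a) : a ∈ b.cent g :=
  b.mem_cent.2 (by rw [b.commute_two]; exact b.mem_cent.1 h)

theorem normal_of_le (b : Base A V) {S : Subgroup X} (hS : V ≤ S) : S.Normal := ⟨fun s hs g => by
  have h := mul_mem (hS (b.comm g s)) hs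
  rwa [commutatorElement_def, inv_mul_cancel_right] at h⟩

variable [Finite X]

theorem card_le_cent_mul (b : Base A V) (a : X) : Nat.card X ≤ Nat.card (b.cent a) * Nat.card V := by
  rw [← Subgroup.card_mul_index (b.cent a), cent, Subgroup.index_ker]
  exact Nat.mul_le_mul_left _ (Subgroup.card_le_card_group _)

theorem card_inf_cent (b : Base A V) (H : Subgroup X) (a : X) :
    Nat.card H ≤ Nat.card (H ⊓ b.cent a : Subgroup X) * Nat.card V := by
  have h := Subgroup.relIndex_mul_relIndex ⊥ (H ⊓ b.cent a) H bot_le inf_le_left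
  rw [Subgroup.relIndex_bot_left, Subgroup.relIndex_bot_left, Subgroup.inf_relIndex_left,
    cent, Subgroup.relIndex_ker] at h
  calc Nat.card H = Nat.card (H ⊓ b.cent a : Subgroup X) * Nat.card ((b.commHom a) '' H) := h.symm
    _ ≤ _ := Nat.mul_le_mul_left _ (Set.ncard_le_card _)

theorem card_adjoin (b : Base A V) {S : Subgroup X} (hS : V ≤ S) {g : X} (hg : g ∉ S) :
    Nat.card (S ⊔ Subgroup.zpowers g : Subgroup X) = 2 * Nat.card S := by
  haveI := b.normal_of_le hS
  have h2 : orderOf (g : X ⧸ S) = 2 := orderOf_eq_prime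
    (by rw [← QuotientGroup.mk_pow, QuotientGroup.eq_one_iff]; exact hS (b.sq_mem g))
    (fun e => hg ((QuotientGroup.eq_one_iff g).1 e))
  have hc : S ⊔ Subgroup.zpowers g = (Subgroup.zpowers (g : X ⧸ S)).comap (QuotientGroup.mk' S) := by
    rw [show Subgroup.zpowers (g : X ⧸ S) = (Subgroup.zpowers g).map (QuotientGroup.mk' S) from
      ((QuotientGroup.mk' S).map_zpowers g).symm, Subgroup.comap_map_eq, QuotientGroup.ker_mk', sup_comm]
  have h1 := Subgroup.card_mul_index (S ⊔ Subgroup.zpowers g)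
  conv_lhs at h1 => arg 2; rw [hc, Subgroup.index_comap_of_surjective _ (QuotientGroup.mk'_surjective S)]
  have h3 := (Subgroup.zpowers (g : X ⧸ S)).card_mul_index
  rw [Nat.card_zpowers, h2] at h3
  have h4 := S.card_mul_index
  rw [Subgroup.index_eq_card, ← h3, ← h1, ← mul_assoc, mul_comm (Nat.card S) 2] at h4
  exact (Nat.eq_of_mul_eq_mul_right (Nat.pos_of_ne_zero Subgroup.index_ne_zero_of_finite) h4).symm

theorem card_two_gen (b : Base A V) (x : X) : Nat.card (V ⊔ Subgroup.zpowers x : Subgroup X) ≤ 2 * Nat.card V := by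
  by_cases hx : x ∈ V
  · rw [sup_eq_left.2 (Subgroup.zpowers_le.2 hx)]; omega
  · exact (b.card_adjoin le_rfl hx).le

/-- An abelian subgroup over `V` has order less than `8 * |V|`. -/
theorem abelian_bound (b : Base A V) {T : Subgroup X} (hT : V ≤ T)
    (hc : ∀ g ∈ T, ∀ g' ∈ T, ⁅g, g'⁆ = 1) : Nat.card T < 8 * Nat.card V := by
  by_contra hlt
  push Not at hlt
  have hpos : 0 < Nat.card V := Nat.card_pos
  let f : T →* V := MonoidHom.mk' (fun g => ⟨(g : X) ^ 2, b.sq_mem g⟩) fun g g' =>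
    Subtype.ext (b.mul_sq_of_comm (hc g g.2 g' g'.2))
  set K := f.ker.map T.subtype with hK
  have hcard : Nat.card T ≤ Nat.card K * Nat.card V := by
    rw [← Subgroup.card_mul_index f.ker, Subgroup.index_ker, hK,
      ← Nat.card_congr (Subgroup.equivMapOfInjective f.ker T.subtype T.subtype_injective).toEquiv]
    exact Nat.mul_le_mul_left _ (Subgroup.card_le_card_group _)
  have hmem : ∀ g ∈ K, g ∈ T ∧ g ^ 2 = 1 := by
    rintro _ ⟨g, hg, rfl⟩
    exact ⟨g.2, congrArg Subtype.val (MonoidHom.mem_ker.1 hg)⟩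
  have hVK : V ≤ K := fun v hv =>
    ⟨⟨v, hT hv⟩, MonoidHom.mem_ker.2 (Subtype.ext (b.two v hv)), rfl⟩
  have h4 := b.hyp.rank K (b.normal_of_le hVK)
    (fun g hg g' hg' => commutatorElement_eq_one_iff_mul_comm.1 (hc g (hmem g hg).1 g' (hmem g' hg').1))
    (fun g hg => (hmem g hg).2)
  have h5 := hlt.trans (hcard.trans (Nat.mul_le_mul_right _ h4))
  exact absurd (Nat.le_of_mul_le_mul_right h5 hpos) (by norm_num)

theorem triple_false (b : Base A V) {x y z : X} (hx : x ∉ V) (hy : y ∉ V ⊔ Subgroup.zpowers x)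
    (hz : z ∉ (V ⊔ Subgroup.zpowers x) ⊔ Subgroup.zpowers y)
    (hxy : y ∈ b.cent x) (hxz : z ∈ b.cent x) (hyz : z ∈ b.cent y) : False := by
  set T := ((V ⊔ Subgroup.zpowers x) ⊔ Subgroup.zpowers y) ⊔ Subgroup.zpowers z
  have h1 := b.card_adjoin le_rfl hx
  have h2 := b.card_adjoin le_sup_left hy
  have h3 := b.card_adjoin (le_sup_left.trans le_sup_left) hz
  have hT : ∀ a, a ∈ b.cent x → a ∈ b.cent y → a ∈ b.cent z → T ≤ b.cent a := fun a ha hb hc =>
    sup_le (sup_le (sup_le (b.le_cent a) (Subgroup.zpowers_le.2 (b.cent_symm ha)))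
      (Subgroup.zpowers_le.2 (b.cent_symm hb))) (Subgroup.zpowers_le.2 (b.cent_symm hc))
  have hc : ∀ g ∈ T, ∀ g' ∈ T, ⁅g, g'⁆ = 1 := by
    intro g hg
    have hgen : ∀ a, (a = x ∨ a = y ∨ a = z) → g ∈ b.cent a := by
      rintro a (rfl | rfl | rfl)
      · exact hT _ (b.self_mem_cent _) (b.cent_symm hxy) (b.cent_symm hxz) hg
      · exact hT _ hxy (b.self_mem_cent _) (b.cent_symm hyz) hg
      · exact hT _ hxz hyz (b.self_mem_cent _) hg
    exact fun g' hg' => b.mem_cent.1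
      (hT g (hgen x (by simp)) (hgen y (by simp)) (hgen z (by simp)) hg')
  have := b.abelian_bound (le_sup_left.trans (le_sup_left.trans le_sup_left) : V ≤ T) hc
  rw [h3, h2, h1] at this
  omega

/-- No centraliser of an element outside `V` has order `16 * |V|`. -/
theorem cent_bound (b : Base A V) {r : X} (hr : r ∉ V) : Nat.card (b.cent r) < 16 * Nat.card V := by
  by_contra hlt
  push Not at hlt
  have hpos : 0 < Nat.card V := Nat.card_pos
  set S := V ⊔ Subgroup.zpowers r with hSdef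
  have hS : Nat.card S = 2 * Nat.card V := b.card_adjoin le_rfl hr
  obtain ⟨a, ha, haS⟩ := exists_mem_not_mem (S := S) (H := b.cent r) (by omega)
  set S1 := S ⊔ Subgroup.zpowers a
  have hS1 : Nat.card S1 = 4 * Nat.card V := by
    rw [b.card_adjoin le_sup_left haS, hS]; ring
  obtain ⟨c, hc, hcS⟩ := exists_mem_not_mem (S := S1) (H := b.cent r) (by omega)
  have hVS1 : V ≤ S1 := le_sup_left.trans le_sup_left
  set S2 := S1 ⊔ Subgroup.zpowers c
  have hS2 : Nat.card S2 = 8 * Nat.card V := by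
    rw [b.card_adjoin hVS1 hcS, hS1]; ring
  obtain ⟨d, hd, hdS⟩ := exists_mem_not_mem (S := S2) (H := b.cent r) (by omega)
  have haS2 : a ∈ S2 := Subgroup.mem_sup_left (Subgroup.mem_sup_right (Subgroup.mem_zpowers a))
  have haS1 : a ∈ S1 := Subgroup.mem_sup_right (Subgroup.mem_zpowers a)
  have hcS2 : c ∈ S2 := Subgroup.mem_sup_right (Subgroup.mem_zpowers c)
  -- a commuting pair independent modulo `⟨V, r⟩`
  have key : ∀ p q, p ∈ b.cent r → q ∈ b.cent r → p ∉ S → q ∉ S ⊔ Subgroup.zpowers p →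
      ⁅p, q⁆ = 1 → False := fun p q hp hq hpS hqS hpq =>
    b.triple_false hr hpS hqS hp hq (b.mem_cent.2 hpq)
  have hsub : ∀ {p : X} {T : Subgroup X}, S ≤ T → p ∈ T → S ⊔ Subgroup.zpowers p ≤ T :=
    fun h hp => sup_le h (Subgroup.zpowers_le.2 hp)
  have hSS2 : S ≤ S2 := le_sup_left.trans le_sup_left
  by_cases h1 : ⁅a, c⁆ = 1
  · exact key a c ha hc haS hcS h1
  have hdS1 : d ∉ S1 := fun h => hdS (Subgroup.mem_sup_left h)
  by_cases h2 : ⁅a, d⁆ = 1
  · exact key a d ha hd haS hdS1 h2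
  by_cases h3 : ⁅c, d⁆ = 1
  · exact key c d hc hd (fun h => hcS (Subgroup.mem_sup_left h))
      (fun h => hdS (hsub hSS2 hcS2 h)) h3
  have hcd_notS : c * d ∉ S1 := fun h => hdS (by
    have := mul_mem (inv_mem hcS2) ((le_sup_left : S1 ≤ S2) h)
    simpa using this)
  by_cases h4 : ⁅a, c⁆ = ⁅a, d⁆
  · refine key a (c * d) ha (mul_mem hc hd) haS hcd_notS ?_
    rw [b.mul_right, h4, ← pow_two, b.two _ (b.comm a d)]
  have had_notS1 : a * d ∉ S2 := fun h => hdS (by
    have := mul_mem (inv_mem haS2) h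
    simpa using this)
  by_cases h5 : ⁅a, c⁆ = ⁅c, d⁆
  · refine key c (a * d) hc (mul_mem ha hd) (fun h => hcS (Subgroup.mem_sup_left h))
      (fun h => had_notS1 (hsub hSS2 hcS2 h)) ?_
    rw [b.mul_right, b.commute_two c a, h5, ← pow_two, b.two _ (b.comm c d)]
  have hac_notS : a * c ∉ S := fun h => hcS (by
    have := mul_mem (inv_mem haS1) ((le_sup_left : S ≤ S1) h)
    simpa using this)
  by_cases h6 : ⁅a, d⁆ = ⁅c, d⁆
  · refine key (a * c) d (mul_mem ha hc) hd hac_notS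
      (fun h => hdS (hsub hSS2 (mul_mem haS2 hcS2) h)) ?_
    rw [b.mul_left, h6, ← pow_two, b.two _ (b.comm c d)]
  -- the three values are the three non-trivial elements of `V`
  refine key (a * c) (a * d) (mul_mem ha hc) (mul_mem ha hd) hac_notS
    (fun h => had_notS1 (hsub hSS2 (mul_mem haS2 hcS2) h)) ?_
  rw [b.mul_left, b.mul_right, b.mul_right, show ⁅a, a⁆ = 1 from
    commutatorElement_eq_one_iff_mul_comm.2 rfl, one_mul, b.commute_two c a]
  by_contra hne
  have h5' := b.card_le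
  have hset : ({(⟨1, V.one_mem⟩ : V), ⟨⁅a, c⁆, b.comm a c⟩, ⟨⁅a, d⁆, b.comm a d⟩,
      ⟨⁅c, d⁆, b.comm c d⟩, ⟨⁅a, d⁆ * (⁅a, c⁆ * ⁅c, d⁆), mul_mem (b.comm a d) (mul_mem (b.comm a c) (b.comm c d))⟩} : Set V).ncard ≤ 4 :=
    (Set.ncard_le_card _).trans h5'
  have hm : ∀ p q : X, p * q = 1 → q ∈ V → p = q := fun p q e hq => by
    rw [eq_inv_of_mul_eq_one_left e, inv_eq_of_mul_eq_one_right (pow_two q ▸ b.two q hq)]
  have hcen : ⁅a, d⁆ * (⁅a, c⁆ * ⁅c, d⁆) = ⁅a, c⁆ * (⁅a, d⁆ * ⁅c, d⁆) := by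
    rw [← mul_assoc, ← mul_assoc, b.central (b.comm a c)]
  rw [Set.ncard_insert_of_notMem, Set.ncard_insert_of_notMem, Set.ncard_insert_of_notMem,
    Set.ncard_pair] at hset
  · omega
  all_goals simp only [Set.mem_insert_iff, Set.mem_singleton_iff, ne_eq, Subtype.mk.injEq, not_or]
  · intro e
    have : ⁅a, d⁆ * ⁅a, c⁆ = 1 := mul_eq_right.1 ((mul_assoc _ _ _).trans e.symm)
    exact h4 (hm _ _ this (b.comm a c)).symm
  · refine ⟨h6, fun e => ?_⟩
    exact h5 (hm _ _ (mul_eq_left.1 e.symm) (b.comm c d))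
  · refine ⟨h4, h5, fun e => ?_⟩
    rw [hcen] at e
    exact h6 (hm _ _ (mul_eq_left.1 e.symm) (b.comm c d))
  · exact ⟨fun e => h1 e.symm, fun e => h2 e.symm, fun e => h3 e.symm, fun e => hne e.symm⟩

/-- With `|V| = 4` and `|X / V| = 32` some element outside `V` has a centraliser of index at most 2. -/
theorem exists_large_cent (b : Base A V) (hV : Nat.card V = 4) (hX : Nat.card X = 128) :
    ∃ r : X, r ∉ V ∧ 64 ≤ Nat.card (b.cent r) := by
  classical
  obtain ⟨v₀, hv₀, hv1⟩ : ∃ v ∈ V, v ≠ (1 : X) := (Subgroup.bot_or_exists_ne_one V).resolve_left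
    (fun h => by rw [h, Subgroup.card_bot] at hV; omega)
  set W₀ : Subgroup V := Subgroup.zpowers ⟨v₀, hv₀⟩ with hW₀def
  have hW₀ : Nat.card W₀ = 2 := by
    rw [Nat.card_zpowers]
    exact orderOf_eq_prime (Subtype.ext (b.two v₀ hv₀)) fun e => hv1 (congrArg Subtype.val e)
  haveI : W₀.Normal := ⟨fun w hw g => by
    rw [show g * w * g⁻¹ = w from Subtype.ext (by
      show (g : X) * w * (g : X)⁻¹ = w
      rw [b.central w.2, mul_inv_cancel_right])]
    exact hw⟩
  have hWi : W₀.index = 2 := by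
    have := W₀.card_mul_index
    rw [hW₀, hV] at this; omega
  let P : X → Subgroup X := fun a => W₀.comap (b.commHom a)
  have hVP : ∀ a, V ≤ P a := fun a v hv => by
    show b.commHom a v ∈ W₀
    rw [show b.commHom a v = 1 from Subtype.ext (b.right_mem hv a)]; exact W₀.one_mem
  have hPsymm : ∀ a g, g ∈ P a → a ∈ P g := fun a g h => by
    show b.commHom g a ∈ W₀
    rw [show b.commHom g a = b.commHom a g from Subtype.ext (b.commute_two g a)]
    exact h
  have hself : ∀ a, a ∈ P a := fun a => by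
    show b.commHom a a ∈ W₀
    rw [show b.commHom a a = 1 from Subtype.ext (commutatorElement_eq_one_iff_mul_comm.2 rfl)]
    exact W₀.one_mem
  have hPcard : ∀ (H : Subgroup X) (a : X), Nat.card H ≤ Nat.card (H ⊓ P a : Subgroup X) * 2 := by
    intro H a
    have h := Subgroup.relIndex_mul_relIndex ⊥ (H ⊓ P a) H bot_le inf_le_left
    rw [Subgroup.relIndex_bot_left, Subgroup.relIndex_bot_left, Subgroup.inf_relIndex_left] at h
    rw [← h, Subgroup.relIndex_comap]
    exact Nat.mul_le_mul_left _ ((Nat.le_of_dvd (by omega) (Subgroup.relIndex_dvd_index_of_normal _ _)).trans hWi.le)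
  suffices h : ∃ r : X, r ∉ V ∧ ∀ g, g ∈ P r by
    obtain ⟨r, hr, hall⟩ := h
    refine ⟨r, hr, ?_⟩
    have hrange : Nat.card (b.commHom r).range ≤ 2 := by
      refine (Subgroup.card_le_of_le ?_).trans hW₀.le
      rintro _ ⟨g, rfl⟩
      exact hall g
    have h := Subgroup.card_mul_index (b.cent r)
    rw [cent, Subgroup.index_ker] at h
    have := Nat.mul_le_mul_left (Nat.card (b.commHom r).ker) hrange
    rw [cent]
    omega
  by_contra hcon
  push Not at hcon
  obtain ⟨x, hx⟩ := b.exists_not_mem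
  obtain ⟨f, hf⟩ := hcon x hx
  set K := P x ⊓ P f with hKdef
  have h128 : Nat.card (⊤ : Subgroup X) = 128 := by rw [Subgroup.card_top, hX]
  have hK1 := hPcard ⊤ x
  rw [top_inf_eq, h128] at hK1
  have hK : 32 ≤ Nat.card K := by have := hPcard (P x) f; rw [hKdef]; omega
  have hVK : V ≤ K := le_inf (hVP x) (hVP f)
  have htop : ∀ S : Subgroup X, 128 ≤ Nat.card S → ∀ g, g ∈ S := fun S h g => by
    rw [Subgroup.eq_top_of_card_eq S (le_antisymm (Subgroup.card_le_card_group _) (by omega))]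
    exact Subgroup.mem_top g
  by_cases hall : ∀ g ∈ K, K ≤ P g
  · obtain ⟨k, hk, hkV⟩ := exists_mem_not_mem (S := V) (H := K) (by omega)
    obtain ⟨g, hg⟩ := hcon k hkV
    have hxK : x ∉ K := fun h => hf (hPsymm _ _ h.2)
    have h1 := b.card_adjoin hVK hxK
    have hf1 : f ∉ K ⊔ Subgroup.zpowers x := fun h =>
      hf ((sup_le inf_le_left (Subgroup.zpowers_le.2 (hself x)) : _ ≤ P x) h)
    have h2 := b.card_adjoin (hVK.trans le_sup_left) hf1
    refine hg ((sup_le (sup_le (hall k hk) (Subgroup.zpowers_le.2 (hPsymm _ _ hk.1)))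
      (Subgroup.zpowers_le.2 (hPsymm _ _ hk.2))) (htop _ ?_ g))
    omega
  push Not at hall
  obtain ⟨g, hg, hgK⟩ := hall
  obtain ⟨g', hg', hgg⟩ := SetLike.not_le_iff_exists.1 hgK
  set K' := (K ⊓ P g) ⊓ P g' with hK'def
  have hK' : 8 ≤ Nat.card K' := by
    have h1 := hPcard K g
    have h2 := hPcard (K ⊓ P g) g'
    rw [hK'def]; omega
  obtain ⟨r, hr, hrV⟩ := exists_mem_not_mem (S := V) (H := K') (by omega)
  obtain ⟨⟨⟨hrx, hrf⟩, hrg⟩, hrg'⟩ := hr
  obtain ⟨t, ht⟩ := hcon r hrV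
  set S0 := V ⊔ Subgroup.zpowers r with hS0
  have h0 : Nat.card S0 = 8 := by rw [hS0, b.card_adjoin le_rfl hrV, hV]
  have hsep : ∀ {S : Subgroup X} {a p : X}, S ≤ P a → p ∉ P a → p ∉ S := fun h hp hm => hp (h hm)
  have hS0a : ∀ a, r ∈ P a → S0 ≤ P a := fun a h => sup_le (hVP a) (Subgroup.zpowers_le.2 h)
  have hx0 : x ∉ S0 := hsep (hS0a f hrf) (fun h => hf (hPsymm _ _ h))
  set S1 := S0 ⊔ Subgroup.zpowers x
  have h1 : Nat.card S1 = 16 := by rw [b.card_adjoin le_sup_left hx0, h0]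
  have hS1x : S1 ≤ P x := sup_le (hS0a x hrx) (Subgroup.zpowers_le.2 (hself x))
  have hf1 : f ∉ S1 := hsep hS1x hf
  set S2 := S1 ⊔ Subgroup.zpowers f
  have hV1 : V ≤ S1 := le_sup_left.trans le_sup_left
  have h2 : Nat.card S2 = 32 := by rw [b.card_adjoin hV1 hf1, h1]
  have hS2a : ∀ a ∈ K, r ∈ P a → S2 ≤ P a := fun a ha h =>
    sup_le (sup_le (hS0a a h) (Subgroup.zpowers_le.2 (hPsymm _ _ ha.1)))
      (Subgroup.zpowers_le.2 (hPsymm _ _ ha.2))
  have hg2 : g ∉ S2 := hsep (hS2a g' hg' hrg') (fun h => hgg (hPsymm _ _ h))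
  set S3 := S2 ⊔ Subgroup.zpowers g
  have h3 : Nat.card S3 = 64 := by rw [b.card_adjoin (hV1.trans le_sup_left) hg2, h2]
  have hg3 : g' ∉ S3 := hsep (sup_le (hS2a g hg hrg) (Subgroup.zpowers_le.2 (hself g))) hgg
  have h4 := b.card_adjoin ((hV1.trans le_sup_left).trans (le_sup_left : S2 ≤ S3)) hg3
  exact ht ((sup_le (sup_le (sup_le (sup_le (hS0a r (hself r))
    (Subgroup.zpowers_le.2 (hPsymm _ _ hrx))) (Subgroup.zpowers_le.2 (hPsymm _ _ hrf)))
      (Subgroup.zpowers_le.2 (hPsymm _ _ hrg))) (Subgroup.zpowers_le.2 (hPsymm _ _ hrg')) :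
        S3 ⊔ Subgroup.zpowers g' ≤ P r) (htop _ (by rw [h4, h3]) t))

/-- `|X / V| ≤ 16`. -/
theorem index_le (b : Base A V) : V.index ≤ 16 := by
  haveI : Fact (Nat.Prime 2) := ⟨Nat.prime_two⟩
  by_contra hlt
  obtain ⟨k, hk⟩ := b.hyp.isPGroup.index V
  obtain ⟨l, hl⟩ := IsPGroup.iff_card.1 (b.hyp.isPGroup.to_subgroup V)
  have hk5 : 5 ≤ k := by
    by_contra hk5
    apply hlt
    rw [hk]
    exact (Nat.pow_le_pow_right (by omega) (show k ≤ 4 by omega))
  have hl2 : l ≤ 2 := (Nat.pow_le_pow_iff_right (show 1 < 2 by omega)).1 (hl ▸ b.card_le)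
  have hX := V.card_mul_index
  rw [hk, hl] at hX
  obtain ⟨x, hx⟩ := b.exists_not_mem
  by_cases hs : l = 2 ∧ k = 5
  · obtain ⟨rfl, rfl⟩ := hs
    obtain ⟨r, hr, h64⟩ := b.exists_large_cent (by rw [hl]; rfl) (by rw [← hX]; rfl)
    have := b.cent_bound hr
    rw [hl] at this
    omega
  · have h1 := b.card_le_cent_mul x
    have h2 := b.cent_bound hx
    rw [← hX, hl, ← pow_add] at h1
    rw [hl] at h2
    have h3 : 2 ^ (l + k) < 2 ^ (l + 4) * 2 ^ l := lt_of_le_of_lt h1 (by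
      rw [show 2 ^ (l + 4) = 16 * 2 ^ l by rw [pow_add]; ring]
      exact Nat.mul_lt_mul_of_pos_right h2 (by positivity))
    rw [← pow_add] at h3
    have := (Nat.pow_lt_pow_iff_right (show 1 < 2 by omega)).1 h3
    omega

end Base

end CfsgLib.ScnThreeFree
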