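import Cfsg.Agent.ScnThreeFree.Frame

/-!
The self-centralising frame: `m = 2` gives the base case, `m ≥ 3` is impossible.
-/

set_option autoImplicit false

open scoped commutatorElement

namespace CfsgLib.ScnThreeFree

variable {X : Type*} [Group X] [Finite X]

/-- An involution whose commutators lie in the central subgroup `V` lies in `V` when `|V| = 4`. -/
theorem Hyp.mem_of_involution {A : Subgroup (MulAut X)} (h : Hyp A) {V : Subgroup X}
    (hV4 : 4 ≤ Nat.card V) (hV2 : ∀ v ∈ V, v ^ 2 = 1) (hcen : ∀ v ∈ V, ∀ g : X, g * v = v * g)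
    {u : X} (hu : u ^ 2 = 1) (hcomm : ∀ g : X, ⁅g, u⁆ ∈ V) : u ∈ V := by
  by_contra hn
  set E : Subgroup X := Subgroup.closure (insert u (V : Set X)) with hE
  have huE : u ∈ E := Subgroup.subset_closure (Set.mem_insert _ _)
  have hVE : V ≤ E := fun v hv => Subgroup.subset_closure (Set.mem_insert_of_mem _ hv)
  have hgen : ∀ g ∈ insert u (V : Set X), ∀ g' ∈ insert u (V : Set X), g * g' = g' * g := by
    intro g hg g' hg'
    simp only [Set.mem_insert_iff, SetLike.mem_coe] at hg hg'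
    rcases hg with rfl | hg <;> rcases hg' with rfl | hg'
    all_goals first | rfl | exact hcen _ hg' _ | exact (hcen _ hg _).symm
  have hcom : ∀ g ∈ E, ∀ g' ∈ E, g * g' = g' * g := fun g hg g' hg' =>
    congrArg Subtype.val ((Subgroup.isMulCommutative_closure hgen).1.comm ⟨g, hg⟩ ⟨g', hg'⟩)
  have hexp : ∀ g ∈ E, g ^ 2 = 1 := fun g hg => by
    induction hg using Subgroup.closure_induction with
    | mem g hg =>
      simp only [Set.mem_insert_iff, SetLike.mem_coe] at hg
      rcases hg with rfl | hg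
      exacts [hu, hV2 g hg]
    | one => exact one_pow 2
    | mul g g' hg hg' i i' => rw [(show Commute g g' from hcom g hg g' hg').mul_pow, i, i', one_mul]
    | inv g _ i => rw [inv_pow, i, inv_one]
  have hn' : E.Normal := ⟨fun g hg z => by
    induction hg using Subgroup.closure_induction with
    | mem g hg =>
      simp only [Set.mem_insert_iff, SetLike.mem_coe] at hg
      rcases hg with rfl | hg
      · have h' := mul_mem (hVE (hcomm z)) huE
        rwa [commutatorElement_def, inv_mul_cancel_right] at h'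
      · rw [hcen g hg z, mul_inv_cancel_right]; exact hVE hg
    | one => rw [mul_one, mul_inv_cancel]; exact E.one_mem
    | mul g g' _ _ i i' => simpa [mul_assoc] using mul_mem i i'
    | inv g _ i => simpa [mul_assoc] using inv_mem i⟩
  have hlt : Nat.card V < Nat.card E := Set.Finite.card_lt_card (Set.toFinite _)
    (SetLike.coe_ssubset_coe.2 (lt_of_le_of_ne hVE fun e => hn (e ▸ huE)))
  have := h.rank E hn' hcom hexp
  omega

namespace Deep

variable {A : Subgroup (MulAut X)} {Z V : Subgroup X} {m : ℕ} {φ : MulAut X}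

theorem four_le (d : Deep A Z V m φ) : 4 ≤ Nat.card V := by
  classical
  obtain ⟨z, hz, hz1⟩ := d.exp_ne
  have ha := d.pi_mem hz
  have hb := d.V_inv φ d.phi_mem _ ha
  have hab := mul_mem ha hb
  have h : ({(⟨1, V.one_mem⟩ : V), ⟨_, ha⟩, ⟨_, hb⟩, ⟨_, hab⟩} : Set V).ncard ≤ Nat.card V :=
    Set.ncard_le_card _
  rw [Set.ncard_insert_of_notMem, Set.ncard_insert_of_notMem, Set.ncard_pair] at h
  · omega
  all_goals simp only [Set.mem_insert_iff, Set.mem_singleton_iff, ne_eq, Subtype.mk.injEq, not_or]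
  · exact fun e => hz1 (mul_eq_right.1 e.symm)
  · exact ⟨fun e => hz1 (d.fp _ ha e.symm), fun e => hz1 (φ.injective
      ((mul_eq_left.1 e.symm).trans (map_one φ).symm))⟩
  · exact ⟨fun e => hz1 e.symm, fun e => hz1 (φ.injective (e.symm.trans (map_one φ).symm)),
      fun e => hz1 (d.fp _ ha (by
        rw [← inv_eq_of_mul_eq_one_right e.symm,
          inv_eq_of_mul_eq_one_right (pow_two (z ^ 2 ^ (m - 1)) ▸ d.V_two ha)]))⟩

variable (d : Deep A Z V m φ) (hself : ∀ g : X, (∀ z ∈ Z, g * z = z * g) → g ∈ Z)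

include d hself

theorem killed_zero {x : X} : x ∈ killed Z 0 ↔ x ∈ Z := by
  rw [mem_killed]
  simp only [pow_zero, pow_one, commutatorElement_eq_one_iff_mul_comm]
  exact ⟨hself x, fun hx z hz => d.comm x hx z hz⟩

theorem exists_not_mem : ∃ x : X, x ∉ Z := by
  by_contra hall
  push Not at hall
  exact d.hyp.nonabelian ⟨⟨fun a b => d.comm a (hall a) b (hall b)⟩⟩

theorem base_of_two (hm : m = 2) : Base A V := by
  have hK : ∀ g : X, g ∈ killed Z 1 := fun g =>
    (show m - 1 = 1 by omega) ▸ d.top_killed g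
  have hinj : ∀ x ∉ Z, ∀ z ∈ Z, ⁅x, z⁆ = 1 → z ∈ V := by
    intro x hx z hz h
    refine (d.mem_V z).2 ⟨hz, ?_⟩
    have h' := d.top_level (x := x) (fun hk => hx ((d.killed_zero hself).1
      ((show m - 2 = 0 by omega) ▸ hk))) z hz (by
        rw [show m - 2 = 0 by omega, pow_zero, pow_one]; exact h)
    rwa [show m - 1 = 1 by omega, pow_one] at h'
  have hsq : ∀ x : X, x ^ 2 ∈ V := by
    intro x
    by_cases hx : x ∈ Z
    · have := d.pi_mem hx
      rwa [show m - 1 = 1 by omega, pow_one] at this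
    · exact hinj x hx _ (by rw [pow_two]; exact (d.killed_zero hself).1 (d.mul_self_killed (hK x)))
        (commutatorElement_eq_one_iff_mul_comm.2 ((pow_succ' x 2).symm.trans (pow_succ x 2)))
  refine ⟨d.hyp, le_antisymm (fun v hv => Subgroup.mem_center_iff.2 fun g => d.central v hv g) ?_,
    fun _ ha => d.V_two ha, hsq, fun x y => ?_⟩
  · intro g hg
    have hgZ : g ∈ Z := hself g fun z _ => (Subgroup.mem_center_iff.1 hg z).symm
    obtain ⟨x, hx⟩ := d.exists_not_mem hself
    exact hinj x hx g hgZ (commutatorElement_eq_one_iff_mul_comm.2 (Subgroup.mem_center_iff.1 hg x))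
  · rw [show ⁅x, y⁆ = x ^ 2 * (x⁻¹ * y) ^ 2 * (y⁻¹) ^ 2 by
      simp [commutatorElement_def, pow_two]; group]
    exact mul_mem (mul_mem (hsq _) (hsq _)) (hsq _)

theorem descent : ∀ j, j ≤ m - 2 → ∀ x ∈ killed Z j, x ∉ Z → ∃ y ∈ killed Z 1, y ∉ Z := by
  intro j
  induction j with
  | zero => exact fun _ x hx hxZ => absurd ((d.killed_zero hself).1 hx) hxZ
  | succ j ih =>
    intro hj x hx hxZ
    by_cases hxj : x ∈ killed Z j
    · exact ih (by omega) x hxj hxZ
    cases j with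
    | zero => exact ⟨x, hx, hxZ⟩
    | succ j =>
      refine ih (by omega) (x * x) (d.mul_self_killed hx) fun hZ => hxj (mem_killed.2 fun z hz => ?_)
      set u := z ^ 2 ^ j with hu
      have huZ : u ∈ Z := pow_mem hz _
      have hu2 : z ^ 2 ^ (j + 1) = u ^ 2 := by rw [hu, ← pow_mul, ← pow_succ]
      set w := ⁅x, u⁆ with hw
      have hwZ : w ∈ Z := d.comm_mem x huZ
      have hw4 : w ^ 2 ^ 2 = 1 := by
        rw [hw, ← d.comm_pow x huZ, hu, ← pow_mul, ← pow_add]
        exact mem_killed.1 hx z hz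
      obtain ⟨e, he, hee⟩ := d.root (i := 2) d.two_le w hwZ hw4
      have hxw : ⁅x, w⁆ = 1 := by
        rw [← hee]
        exact mem_killed.1 (d.mono hj hx) e he
      have hxx : ⁅x * x, u⁆ = 1 :=
        commutatorElement_eq_one_iff_mul_comm.2 (d.comm _ hZ u huZ)
      rw [show ⁅x * x, u⁆ = ⁅x, w⁆ * w * w by rw [hw]; simp [commutatorElement_def]; group, hxw,
        one_mul, ← pow_two] at hxx
      rw [hu2, d.comm_pow x huZ, ← hw, hxx]

theorem false_of_three_le (hm : 3 ≤ m) : False := by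
  obtain ⟨n, rfl⟩ : ∃ n, m = n + 3 := ⟨m - 3, by omega⟩
  -- an element outside `Z` centralising all squares of `Z` modulo `V`
  obtain ⟨y₀, hy₀, hy₀Z⟩ : ∃ y ∈ killed Z 1, y ∉ Z := by
    obtain ⟨x, hxZ⟩ := d.exists_not_mem hself
    by_cases hx : x ∈ killed Z (n + 1)
    · exact d.descent hself (n + 1) le_rfl x hx hxZ
    have hK : ∀ g : X, g ∈ killed Z (n + 2) := fun g => d.top_killed g
    refine d.descent hself (n + 1) le_rfl (x * x) (d.mul_self_killed (hK x)) fun hZ => ?_
    obtain ⟨z, hz, hzne⟩ : ∃ z ∈ Z, ⁅x, z ^ 2 ^ (n + 1)⁆ ≠ 1 := by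
      by_contra hall
      push Not at hall
      exact hx (mem_killed.2 hall)
    have hpi : ∀ w ∈ Z, ⁅x, w ^ 2 ^ (n + 1)⁆ = w ^ 2 ^ (n + 2) := by
      intro w hw
      set u := w ^ 2 ^ n with hu
      have huZ : u ∈ Z := pow_mem hw _
      set t := ⁅x, u⁆ with ht
      have htZ : t ∈ Z := d.comm_mem x huZ
      have ht4 : t ^ 2 ^ 2 = 1 := by
        rw [ht, ← d.comm_pow x huZ, hu, ← pow_mul, ← pow_add]
        exact mem_killed.1 (hK x) w hw
      obtain ⟨e, he, hee⟩ := d.root (i := 2) (by omega) t htZ ht4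
      rw [show n + 3 - 2 = n + 1 by omega] at hee
      have ht2 : t ^ 2 = ⁅x, w ^ 2 ^ (n + 1)⁆ := by
        rw [ht, ← d.comm_pow x huZ, hu, ← pow_mul, ← pow_succ]
      have hxx : ⁅x * x, u⁆ = 1 := commutatorElement_eq_one_iff_mul_comm.2 (d.comm _ hZ u huZ)
      rw [show ⁅x * x, u⁆ = ⁅x, t⁆ * t * t by rw [ht]; simp [commutatorElement_def]; group,
        mul_assoc, ← pow_two, ht2] at hxx
      have hv := d.comm_mem_V (hK x) hw
      have h1 : ⁅x, t⁆ = ⁅x, w ^ 2 ^ (n + 1)⁆ := by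
        rw [eq_inv_of_mul_eq_one_left hxx, inv_eq_of_mul_eq_one_right (pow_two ⁅x, w ^ 2 ^ (n + 1)⁆ ▸ d.V_two hv)]
      have hpe : e ^ 2 ^ (n + 2) = ⁅x, w ^ 2 ^ (n + 1)⁆ := by
        rw [← ht2, ← hee, ← pow_mul, ← pow_succ]
      rw [← hee] at h1
      by_contra hne
      -- `w⁻¹ * e` is killed
      have hwe : w⁻¹ * e ∈ Z := mul_mem (inv_mem hw) he
      have hk : ⁅x, (w⁻¹ * e) ^ 2 ^ (n + 1)⁆ = 1 := by
        have h2 := d.comm_mul x (pow_mem hw (2 ^ (n + 1))) (pow_mem hwe (2 ^ (n + 1)))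
        rw [← (show Commute w (w⁻¹ * e) from d.comm w hw _ hwe).mul_pow, mul_inv_cancel_left, h1]
          at h2
        exact mul_eq_left.1 h2.symm
      have h3 := d.top_level hx _ hwe hk
      rw [show n + 3 - 1 = n + 2 by omega,
        (show Commute w⁻¹ e from d.comm _ (inv_mem hw) e he).mul_pow, inv_pow, inv_mul_eq_one, hpe] at h3
      exact hne h3.symm
    -- so `x` is fixed
    have hc : ∀ ψ ∈ A, x⁻¹ * ψ x ∈ killed Z (n + 1) := by
      intro ψ hψ
      refine mem_killed.2 fun w hw => ?_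
      obtain ⟨w', hw', rfl⟩ := d.exists_preimage hψ hw
      have hwm := pow_mem hw (2 ^ (n + 1))
      rw [d.comm_comp x⁻¹ hwm (d.comm_mem_V (hK _) hw),
        show ⁅ψ x, ψ w' ^ 2 ^ (n + 1)⁆ = ⁅x, ψ w' ^ 2 ^ (n + 1)⁆ by
          rw [← map_pow, ← map_commutatorElement, hpi w' hw', map_pow, map_pow, hpi _ hw],
        ← d.comm_comp x⁻¹ hwm (d.comm_mem_V (hK x) hw), inv_mul_cancel, commutatorElement_one_left]
    have hcm : ∀ a b : X, ⁅a, b⁆ ∈ killed Z (n + 1) := fun a b => mem_killed.2 fun w hw => by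
      let f : X →* V := MonoidHom.mk' (fun g => ⟨⁅g, w ^ 2 ^ (n + 1)⁆, d.comm_mem_V (hK g) hw⟩)
        fun g g' => Subtype.ext (d.comm_comp g (pow_mem hw _) (d.comm_mem_V (hK g') hw))
      have h : f ⁅a, b⁆ = 1 := by
        rw [map_commutatorElement, commutatorElement_eq_one_iff_mul_comm]
        exact Subtype.ext (d.central _ (f b).2 _)
      exact congrArg Subtype.val h
    haveI : (killed Z (n + 1)).Normal := ⟨fun k hk g => by
      have h := mul_mem (hcm g k) hk
      rwa [commutatorElement_def, inv_mul_cancel_right] at h⟩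
    exact hx (d.hyp.mem_of_fixed (d.killed_inv _) hcm hc)
  obtain ⟨y, hy, hinj⟩ : ∃ y ∈ killed Z 1, d.Inj 0 y := by
    by_cases h : d.Inj 0 y₀
    · exact ⟨y₀, hy₀, h⟩
    · obtain ⟨y, hy, -, hi, -⟩ :=
        d.exists_fixed (j := 0) hy₀ (fun hk => hy₀Z ((d.killed_zero hself).1 hk)) h
      exact ⟨y, hy, hi⟩
  have hval : ∀ a ∈ Z, ⁅y, a⁆ ∈ V := fun a ha => by
    have := d.comm_mem_V hy ha
    rwa [pow_zero, pow_one] at this
  have hsq : ∀ a ∈ Z, ⁅y, a ^ 2⁆ = 1 := fun a ha => mem_killed.1 hy a ha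
  set c := y * y with hc
  have hcZ : c ∈ Z := (d.killed_zero hself).1 (d.mul_self_killed hy)
  obtain ⟨e, he, hee⟩ : ∃ e ∈ Z, e ^ 2 = c := d.exists_sq_of_pi hcZ (hinj c hcZ (by
    rw [pow_zero, pow_one, commutatorElement_eq_one_iff_mul_comm, hc, mul_assoc]))
  set t := ⁅y, e⁻¹⁆ with ht
  have htV : t ∈ V := hval _ (inv_mem he)
  obtain ⟨q, hq, hqt⟩ := d.exists_pi htV
  set r := q ^ 2 ^ n with hr
  have hrZ : r ∈ Z := pow_mem hq _
  set s := r ^ 2 with hs
  have hsZ : s ∈ Z := pow_mem hrZ _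
  have hst : s ^ 2 = t := by
    rw [hs, hr, ← pow_mul, ← pow_mul, ← hqt, show n + 3 - 1 = n + 2 by omega, pow_succ, pow_succ]
    congr 1
    ring
  set z := e⁻¹ * s with hz
  have hzZ : z ∈ Z := mul_mem (inv_mem he) hsZ
  have hyz : ⁅y, z⁆ = t := by
    rw [hz, d.comm_mul y (inv_mem he) hsZ, ← ht, hsq r hrZ, mul_one]
  set u := z * y with hu
  have hu2 : u ^ 2 = 1 := by
    have e1 : u ^ 2 = z * ⁅y, z⁆ * z * c := by
      rw [hu, hc]; simp [commutatorElement_def, pow_two]; group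
    have e2 : z * z = c⁻¹ * t := by
      rw [← pow_two, hz, (show Commute e⁻¹ s from d.comm _ (inv_mem he) s hsZ).mul_pow, inv_pow,
        hee, hst]
    rw [e1, hyz, d.central t htV z, mul_assoc t, e2, mul_assoc, mul_assoc, d.comm t (d.V_le htV) c hcZ,
      inv_mul_cancel_left, ← pow_two, d.V_two htV]
  -- commutators with `u` lie in `V`
  have hcomm : ∀ g : X, ⁅g, u⁆ ∈ V := by
    intro g
    have hgy : ⁅g, y⁆ ∈ Z := by
      refine hself _ fun a ha => ?_
      have hkey : ∀ a ∈ Z, g * y * a * (g * y)⁻¹ = y * g * a * (y * g)⁻¹ := by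
        intro a ha
        have h1 : ⁅y, ⁅g, a⁆⁆ = 1 := by
          have hga := d.comm_mem g ha
          have hpi : ⁅g, a⁆ ^ 2 ^ (n + 2) = 1 ^ 2 ^ (n + 2) := by
            rw [← d.comm_pow g ha, one_pow]
            exact mem_killed.1 (d.top_killed g) a ha
          have := d.comm_congr_pi hy hga Z.one_mem hpi
          rwa [pow_zero, pow_one, pow_one, commutatorElement_one_right] at this
        have h2 : ⁅g * y, a⁆ = ⁅y * g, a⁆ := by
          rw [d.comm_comp g ha (hval a ha),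
            show ⁅y * g, a⁆ = ⁅y, ⁅g, a⁆⁆ * ⁅g, a⁆ * ⁅y, a⁆ by simp [commutatorElement_def]; group,
            h1, one_mul]
        have h3 := congrArg (· * a) h2
        simpa only [commutatorElement_def, inv_mul_cancel_right] using h3
      have h := hkey ((y * g)⁻¹ * a * (y * g)) (by
        simpa using d.normal.conj_mem a ha (y * g)⁻¹)
      have e1 : ⁅g, y⁆ * a * ⁅g, y⁆⁻¹ = a := by
        calc ⁅g, y⁆ * a * ⁅g, y⁆⁻¹
            = g * y * ((y * g)⁻¹ * a * (y * g)) * (g * y)⁻¹ := by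
              simp [commutatorElement_def]; group
          _ = a := by rw [h]; group
      exact mul_inv_eq_iff_eq_mul.1 e1
    set w := ⁅g, u⁆ with hw
    have hwZ : w ∈ Z := by
      rw [hw, hu, show ⁅g, z * y⁆ = ⁅g, z⁆ * (z * ⁅g, y⁆ * z⁻¹) by
        simp [commutatorElement_def]; group]
      exact mul_mem (d.comm_mem g hzZ) (mul_mem (mul_mem hzZ hgy) (inv_mem hzZ))
    have huw : ⁅u, w⁆ = ⁅y, w⁆ := by
      rw [hu, d.comm_comp z hwZ (hval w hwZ),
        commutatorElement_eq_one_iff_mul_comm.2 (d.comm z hzZ w hwZ), one_mul]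
    have hwu : w * ⁅u, w⁆ * w * u ^ 2 = 1 := by
      calc w * ⁅u, w⁆ * w * u ^ 2 = (w * u) ^ 2 := by
            simp [commutatorElement_def, pow_two]; group
        _ = g * u ^ 2 * g⁻¹ := by rw [hw]; simp [commutatorElement_def, pow_two, mul_assoc]
        _ = 1 := by rw [hu2]; group
    rw [hu2, mul_one, huw, d.comm w hwZ _ (d.V_le (hval w hwZ)), mul_assoc, ← pow_two] at hwu
    have hw4 : w ^ 2 ^ 2 = 1 := by
      rw [show w ^ 2 ^ 2 = (w ^ 2) ^ 2 from pow_mul w 2 2,
        ← inv_eq_of_mul_eq_one_right hwu, inv_pow, d.V_two (hval w hwZ), inv_one]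
    obtain ⟨f, hf, hff⟩ := d.root (i := 2) (by omega) w hwZ hw4
    have hyw : ⁅y, w⁆ = 1 := by
      rw [← hff, show n + 3 - 2 = n + 1 by omega, pow_succ, pow_mul]
      exact hsq _ (pow_mem hf _)
    rw [hyw, one_mul] at hwu
    exact (d.mem_V w).2 ⟨hwZ, hwu⟩
  have huV := d.hyp.mem_of_involution d.four_le (fun v hv => d.V_two hv) d.central hu2 hcomm
  have hyZ : y ∈ Z := by
    rw [show y = z⁻¹ * u by rw [hu, inv_mul_cancel_left]]
    exact mul_mem (inv_mem hzZ) (d.V_le huV)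
  obtain ⟨a, ha, ha1⟩ := d.exp_ne
  exact ha1 (hinj a ha (by
    rw [pow_zero, pow_one, commutatorElement_eq_one_iff_mul_comm]; exact d.comm y hyZ a ha))

theorem base : Base A V := by
  rcases (show m = 2 ∨ 3 ≤ m by have := d.two_le; omega) with h | h
  · exact d.base_of_two hself h
  · exact (d.false_of_three_le hself h).elim

end Deep

end CfsgLib.ScnThreeFree
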