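import Cfsg.Agent.ScnThreeFree.Squares

/-!
An invariant normal abelian subgroup `Z` of exponent `2 ^ m` with `m ≥ 2` whose involutions form a
fours group `V` on which some automorphism acts as a three-cycle.
-/

set_option autoImplicit false

open scoped commutatorElement

namespace CfsgLib.ScnThreeFree

variable {X : Type*} [Group X] [Finite X]

theorem Hyp.two_fixed {A : Subgroup (MulAut X)} (h : Hyp A) {χ : MulAut X} (hχ : χ ∈ A) {z : X}
    (h2 : χ (χ z) = z) : χ z = z := by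
  have hpow : ∀ i : ℕ, (χ ^ (2 * i)) z = z := by
    intro i
    induction i with
    | zero => rfl
    | succ i ih =>
      rw [show 2 * (i + 1) = 2 + 2 * i by ring, pow_add, MulAut.mul_apply, ih, pow_two,
        MulAut.mul_apply, h2]
  obtain ⟨k, hk⟩ := h.odd_orderOf hχ
  have h1 := congrArg (fun ψ : MulAut X => ψ z) (pow_orderOf_eq_one χ)
  simp only [hk, pow_succ', MulAut.mul_apply, hpow, MulAut.one_apply] at h1
  exact h1

theorem cover_of_card_le_four {V : Subgroup X} (h4 : Nat.card V ≤ 4) (hV2 : ∀ v ∈ V, v ^ 2 = 1)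
    {a b c : X} (ha : a ∈ V) (hb : b ∈ V) (hc : c ∈ V) (ha1 : a ≠ 1) (hb1 : b ≠ 1) (hab : a ≠ b) :
    c = 1 ∨ c = a ∨ c = b ∨ c = a * b := by
  classical
  by_contra hcon
  simp only [not_or] at hcon
  have h5 : ({(⟨c, hc⟩ : V), ⟨1, V.one_mem⟩, ⟨a, ha⟩, ⟨b, hb⟩, ⟨a * b, mul_mem ha hb⟩} : Set V).ncard
      ≤ 4 := (Set.ncard_le_card _).trans h4
  rw [Set.ncard_insert_of_notMem, Set.ncard_insert_of_notMem, Set.ncard_insert_of_notMem,
    Set.ncard_pair] at h5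
  · omega
  all_goals simp only [Set.mem_insert_iff, Set.mem_singleton_iff, ne_eq, Subtype.mk.injEq, not_or]
  · exact fun e => ha1 (mul_eq_right.1 e.symm)
  · exact ⟨hab, fun e => hb1 (mul_eq_left.1 e.symm)⟩
  · exact ⟨fun e => ha1 e.symm, fun e => hb1 e.symm, fun e => hab (by
      rw [eq_inv_of_mul_eq_one_left e.symm, inv_eq_of_mul_eq_one_right (pow_two b ▸ hV2 b hb)])⟩
  · exact ⟨hcon.1, hcon.2.1, hcon.2.2.1, hcon.2.2.2⟩

/-- The frame. -/
structure Deep (A : Subgroup (MulAut X)) (Z V : Subgroup X) (m : ℕ) (φ : MulAut X) : Prop where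
  hyp : Hyp A
  normal : Z.Normal
  inv : Inv A Z
  comm : ∀ a ∈ Z, ∀ b ∈ Z, a * b = b * a
  mem_V : ∀ v : X, v ∈ V ↔ v ∈ Z ∧ v ^ 2 = 1
  central : ∀ v ∈ V, ∀ g : X, g * v = v * g
  two_le : 2 ≤ m
  exp : ∀ z ∈ Z, z ^ 2 ^ m = 1
  exp_ne : ∃ z ∈ Z, z ^ 2 ^ (m - 1) ≠ 1
  phi_mem : φ ∈ A
  fp : ∀ v ∈ V, φ v = v → v = 1

/-- The elements centralising every `2 ^ j`-th power in `Z`. -/
def killed (Z : Subgroup X) (j : ℕ) : Subgroup X :=
  Subgroup.centralizer ((fun z : X => z ^ 2 ^ j) '' (Z : Set X))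

omit [Finite X] in
theorem mem_killed {Z : Subgroup X} {j : ℕ} {x : X} :
    x ∈ killed Z j ↔ ∀ z ∈ Z, ⁅x, z ^ 2 ^ j⁆ = 1 := by
  rw [killed, Subgroup.mem_centralizer_iff]
  simp only [Set.forall_mem_image, SetLike.mem_coe, commutatorElement_eq_one_iff_mul_comm]
  exact ⟨fun h z hz => (h hz).symm, fun h z hz => (h z hz).symm⟩

namespace Deep

variable {A : Subgroup (MulAut X)} {Z V : Subgroup X} {m : ℕ} {φ : MulAut X}

theorem V_le (d : Deep A Z V m φ) : V ≤ Z := fun v hv => ((d.mem_V v).1 hv).1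

theorem V_two (d : Deep A Z V m φ) {v : X} (hv : v ∈ V) : v ^ 2 = 1 := ((d.mem_V v).1 hv).2

theorem V_inv (d : Deep A Z V m φ) : Inv A V := fun ψ hψ v hv =>
  (d.mem_V _).2 ⟨d.inv ψ hψ v (d.V_le hv), by rw [← map_pow, d.V_two hv, map_one]⟩

theorem V_normal (d : Deep A Z V m φ) : V.Normal := ⟨fun v hv g => by
  rwa [d.central v hv g, mul_inv_cancel_right]⟩

theorem card_V (d : Deep A Z V m φ) : Nat.card V ≤ 4 :=
  d.hyp.rank V d.V_normal (fun _ ha c hc => d.central c hc _) fun _ ha => d.V_two ha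

theorem phi_phi (d : Deep A Z V m φ) {a : X} (ha : a ∈ V) : φ (φ a) = a * φ a := by
  by_cases ha1 : a = 1
  · simp [ha1]
  have hb := d.V_inv φ d.phi_mem a ha
  have hb1 : φ a ≠ 1 := fun e => ha1 (φ.injective (e.trans (map_one φ).symm))
  have hab : a ≠ φ a := fun e => ha1 (d.fp a ha e.symm)
  rcases cover_of_card_le_four d.card_V (fun v hv => d.V_two hv) ha hb
    (d.V_inv φ d.phi_mem _ hb) ha1 hb1 hab with e | e | e | e
  · exact absurd (φ.injective (e.trans (map_one φ).symm)) hb1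
  · exact absurd (d.hyp.two_fixed d.phi_mem e).symm hab
  · exact absurd (φ.injective e).symm hab
  · exact e

theorem phi_three (d : Deep A Z V m φ) {a : X} (ha : a ∈ V) : φ (φ (φ a)) = a := by
  have hb := d.V_inv φ d.phi_mem a ha
  rw [d.phi_phi hb, d.phi_phi ha, d.central a ha (φ a) |>.symm.trans rfl, ← mul_assoc, ← pow_two,
    d.V_two hb, one_mul]

theorem cover (d : Deep A Z V m φ) {a c : X} (ha : a ∈ V) (ha1 : a ≠ 1) (hc : c ∈ V) :
    c = 1 ∨ c = a ∨ c = φ a ∨ c = φ (φ a) := by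
  rw [d.phi_phi ha]
  exact cover_of_card_le_four d.card_V (fun v hv => d.V_two hv) ha (d.V_inv φ d.phi_mem a ha) hc ha1
    (fun e => ha1 (φ.injective (e.trans (map_one φ).symm))) fun e => ha1 (d.fp a ha e.symm)

/-- Every element of `A` acts on `V` as a power of `φ`. -/
theorem acts_as_power (d : Deep A Z V m φ) {ψ : MulAut X} (hψ : ψ ∈ A) :
    ∃ i : ℕ, ∀ v ∈ V, ψ v = (φ ^ i) v := by
  by_cases htriv : ∀ v ∈ V, v = 1
  · exact ⟨0, fun v hv => by rw [htriv v hv, map_one, map_one]⟩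
  push Not at htriv
  obtain ⟨a, ha, ha1⟩ := htriv
  have key : ∀ χ ∈ A, χ a = a → ∀ v ∈ V, χ v = v := by
    intro χ hχ hχa
    have hb := d.V_inv φ d.phi_mem a ha
    have hφb : χ (φ a) = φ a := by
      rcases d.cover ha ha1 (d.V_inv χ hχ _ hb) with e | e | e | e
      · exact absurd (φ.injective ((χ.injective (e.trans (map_one χ).symm)).trans (map_one φ).symm)) ha1
      · exact absurd (d.fp a ha (χ.injective (e.trans hχa.symm))) ha1
      · exact e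
      · refine d.hyp.two_fixed hχ ?_
        rw [e, d.phi_phi ha, map_mul, hχa, e, d.phi_phi ha, ← mul_assoc, ← pow_two, d.V_two ha, one_mul]
    intro v hv
    rcases d.cover ha ha1 hv with rfl | rfl | rfl | rfl
    · exact map_one χ
    · exact hχa
    · exact hφb
    · rw [d.phi_phi ha, map_mul, hχa, hφb]
  obtain ⟨i, hi⟩ : ∃ i : ℕ, ψ a = (φ ^ i) a := by
    rcases d.cover ha ha1 (d.V_inv ψ hψ a ha) with e | e | e | e
    · exact absurd (ψ.injective (e.trans (map_one ψ).symm)) ha1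
    · exact ⟨0, e.trans rfl⟩
    · exact ⟨1, e.trans (by rw [pow_one])⟩
    · exact ⟨2, e.trans (by rw [pow_two, MulAut.mul_apply])⟩
  refine ⟨i, fun v hv => ?_⟩
  have h := key ((φ ^ i)⁻¹ * ψ) (mul_mem (inv_mem (pow_mem d.phi_mem i)) hψ)
    (by rw [MulAut.mul_apply, hi, MulAut.inv_apply_self]) v hv
  rw [MulAut.mul_apply] at h
  conv_rhs => rw [← h]
  rw [MulAut.apply_inv_self]

theorem exists_preimage (d : Deep A Z V m φ) {ψ : MulAut X} (hψ : ψ ∈ A) {z : X} (hz : z ∈ Z) :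
    ∃ z' ∈ Z, ψ z' = z :=
  ⟨ψ⁻¹ z, d.inv _ (inv_mem hψ) z hz, MulAut.apply_inv_self _ _ _⟩

theorem comm_mem (d : Deep A Z V m φ) (x : X) {a : X} (ha : a ∈ Z) : ⁅x, a⁆ ∈ Z := by
  rw [commutatorElement_def]
  exact mul_mem (d.normal.conj_mem a ha x) (inv_mem ha)

theorem comm_mul (d : Deep A Z V m φ) (x : X) {a b : X} (ha : a ∈ Z) (hb : b ∈ Z) :
    ⁅x, a * b⁆ = ⁅x, a⁆ * ⁅x, b⁆ := by
  rw [show ⁅x, a * b⁆ = ⁅x, a⁆ * (a * ⁅x, b⁆ * a⁻¹) by simp [commutatorElement_def]; group,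
    d.comm a ha _ (d.comm_mem x hb), mul_inv_cancel_right]

theorem comm_pow (d : Deep A Z V m φ) (x : X) {a : X} (ha : a ∈ Z) (k : ℕ) :
    ⁅x, a ^ k⁆ = ⁅x, a⁆ ^ k := by
  induction k with
  | zero => simp
  | succ k ih => rw [pow_succ, pow_succ, d.comm_mul x (pow_mem ha k) ha, ih]

theorem comm_comp (d : Deep A Z V m φ) (x : X) {y a : X} (ha : a ∈ Z) (hy : ⁅y, a⁆ ∈ V) :
    ⁅x * y, a⁆ = ⁅x, a⁆ * ⁅y, a⁆ := by
  rw [show ⁅x * y, a⁆ = x * ⁅y, a⁆ * x⁻¹ * ⁅x, a⁆ by simp [commutatorElement_def]; group,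
    d.central _ hy x, mul_inv_cancel_right, d.central _ hy]

theorem mono (d : Deep A Z V m φ) {i j : ℕ} (hij : i ≤ j) : killed Z i ≤ killed Z j := by
  intro x hx
  rw [mem_killed] at hx ⊢
  intro z hz
  rw [show z ^ 2 ^ j = (z ^ 2 ^ (j - i)) ^ 2 ^ i by
    rw [← pow_mul, ← pow_add, Nat.sub_add_cancel hij]]
  exact hx _ (pow_mem hz _)

theorem killed_inv (d : Deep A Z V m φ) (j : ℕ) : Inv A (killed Z j) := by
  intro ψ hψ x hx
  rw [mem_killed] at hx ⊢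
  intro z hz
  obtain ⟨z', hz', rfl⟩ := d.exists_preimage hψ hz
  rw [← map_pow, ← map_commutatorElement, hx z' hz', map_one]

theorem pi_mem (d : Deep A Z V m φ) {z : X} (hz : z ∈ Z) : z ^ 2 ^ (m - 1) ∈ V :=
  (d.mem_V _).2 ⟨pow_mem hz _, by
    have := d.two_le
    rw [← pow_mul, ← pow_succ, show m - 1 + 1 = m by omega]
    exact d.exp z hz⟩

theorem comm_mem_V (d : Deep A Z V m φ) {j : ℕ} {x : X} (hx : x ∈ killed Z (j + 1)) {z : X}
    (hz : z ∈ Z) : ⁅x, z ^ 2 ^ j⁆ ∈ V :=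
  (d.mem_V _).2 ⟨d.comm_mem x (pow_mem hz _), by
    rw [← d.comm_pow x (pow_mem hz _), ← pow_mul, ← pow_succ]
    exact mem_killed.1 hx z hz⟩

theorem top_killed (d : Deep A Z V m φ) (x : X) : x ∈ killed Z (m - 1) := mem_killed.2 fun z hz =>
  commutatorElement_eq_one_iff_mul_comm.2 (d.central _ (d.pi_mem hz) x)

theorem exists_pi (d : Deep A Z V m φ) {v : X} (hv : v ∈ V) : ∃ z ∈ Z, z ^ 2 ^ (m - 1) = v := by
  obtain ⟨z, hz, hz1⟩ := d.exp_ne
  have h1 : φ z ∈ Z := d.inv φ d.phi_mem z hz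
  rcases d.cover (d.pi_mem hz) hz1 hv with rfl | rfl | rfl | rfl
  · exact ⟨1, Z.one_mem, one_pow _⟩
  · exact ⟨z, hz, rfl⟩
  · exact ⟨φ z, h1, (map_pow φ z _).symm⟩
  · exact ⟨φ (φ z), d.inv φ d.phi_mem _ h1, by rw [← map_pow, ← map_pow]⟩

/-- `Z` has no gaps: an element killed by `2 ^ i` is a `2 ^ (m - i)`-th power. -/
theorem root (d : Deep A Z V m φ) {i : ℕ} (hi : i ≤ m) :
    ∀ z ∈ Z, z ^ 2 ^ i = 1 → ∃ e ∈ Z, e ^ 2 ^ (m - i) = z := by
  induction i with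
  | zero =>
    intro z hz h
    rw [pow_zero, pow_one] at h
    exact ⟨1, Z.one_mem, by rw [one_pow, h]⟩
  | succ i ih =>
    intro z hz h
    have hv : z ^ 2 ^ i ∈ V := (d.mem_V _).2 ⟨pow_mem hz _, by rw [← pow_mul, ← pow_succ]; exact h⟩
    obtain ⟨f, hf, hfv⟩ := d.exists_pi hv
    set g := f ^ 2 ^ (m - (i + 1)) with hg
    have hgZ : g ∈ Z := pow_mem hf _
    have h1 : (z * g⁻¹) ^ 2 ^ i = 1 := by
      rw [(show Commute z g⁻¹ from d.comm z hz _ (inv_mem hgZ)).mul_pow, inv_pow, hg, ← pow_mul,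
        ← pow_add, show m - (i + 1) + i = m - 1 by omega, hfv, mul_inv_cancel]
    obtain ⟨e, he, hee⟩ := ih (by omega) _ (mul_mem hz (inv_mem hgZ)) h1
    refine ⟨e ^ 2 * f, mul_mem (pow_mem he 2) hf, ?_⟩
    rw [(show Commute (e ^ 2) f from d.comm _ (pow_mem he 2) f hf).mul_pow, ← hg, ← pow_mul,
      ← pow_succ', show m - (i + 1) + 1 = m - i by omega, hee, inv_mul_cancel_right]

theorem exists_sq_of_pi (d : Deep A Z V m φ) {z : X} (hz : z ∈ Z) (h : z ^ 2 ^ (m - 1) = 1) :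
    ∃ e ∈ Z, e ^ 2 = z := by
  have := d.two_le
  obtain ⟨e, he, hee⟩ := d.root (i := m - 1) (by omega) z hz h
  exact ⟨e, he, by rwa [show m - (m - 1) = 1 by omega, pow_one] at hee⟩

theorem comm_congr_pi (d : Deep A Z V m φ) {j : ℕ} {x : X} (hx : x ∈ killed Z (j + 1)) {a b : X}
    (ha : a ∈ Z) (hb : b ∈ Z) (h : a ^ 2 ^ (m - 1) = b ^ 2 ^ (m - 1)) :
    ⁅x, a ^ 2 ^ j⁆ = ⁅x, b ^ 2 ^ j⁆ := by
  have hab : a⁻¹ * b ∈ Z := mul_mem (inv_mem ha) hb
  obtain ⟨e, he, hee⟩ := d.exists_sq_of_pi hab (by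
    rw [(show Commute a⁻¹ b from d.comm _ (inv_mem ha) b hb).mul_pow, inv_pow, h, inv_mul_cancel])
  have h1 : b = a * e ^ 2 := by rw [hee, mul_inv_cancel_left]
  rw [h1, (show Commute a (e ^ 2) from d.comm a ha _ (pow_mem he 2)).mul_pow,
    d.comm_mul x (pow_mem ha _) (pow_mem (pow_mem he 2) _), ← pow_mul, ← pow_succ',
    mem_killed.1 hx e he, mul_one]

/-- `x` acts injectively on `Z / Z²` at level `j`. -/
def Inj (_d : Deep A Z V m φ) (j : ℕ) (x : X) : Prop :=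
  ∀ z ∈ Z, ⁅x, z ^ 2 ^ j⁆ = 1 → z ^ 2 ^ (m - 1) = 1

/-- A non-injective element gives one that is injective and fixed modulo `killed Z j`. -/
theorem exists_fixed (d : Deep A Z V m φ) {j : ℕ} {x : X} (hx : x ∈ killed Z (j + 1))
    (hne : x ∉ killed Z j) (hni : ¬ d.Inj j x) :
    ∃ y ∈ killed Z (j + 1), y ∉ killed Z j ∧ d.Inj j y ∧
      ∀ ψ ∈ A, y⁻¹ * ψ y ∈ killed Z j := by
  simp only [Inj] at hni
  push Not at hni
  obtain ⟨z₀, hz₀, hk, hp⟩ := hni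
  have hφ := d.phi_mem
  have hmem : ∀ {z : X}, z ∈ Z → φ z ∈ Z := fun h => d.inv φ hφ _ h
  have hKmem : ∀ {g : X}, g ∈ killed Z (j + 1) → φ g ∈ killed Z (j + 1) :=
    fun h => d.killed_inv (j + 1) φ hφ _ h
  -- values of `x` on the three classes
  set z₁ := φ z₀ with hz₁
  set z₂ := φ z₁ with hz₂
  have hz₁Z : z₁ ∈ Z := hmem hz₀
  have hz₂Z : z₂ ∈ Z := hmem hz₁Z
  have hp1 : z₁ ^ 2 ^ (m - 1) = φ (z₀ ^ 2 ^ (m - 1)) := (map_pow φ z₀ _).symm
  have hp2 : z₂ ^ 2 ^ (m - 1) = (z₀ * z₁) ^ 2 ^ (m - 1) := by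
    rw [(show Commute z₀ z₁ from d.comm _ hz₀ _ hz₁Z).mul_pow, hp1, ← d.phi_phi (d.pi_mem hz₀),
      hz₂, ← map_pow, hp1]
  set c := ⁅x, z₁ ^ 2 ^ j⁆ with hc
  have hcV : c ∈ V := d.comm_mem_V hx hz₁Z
  have hx2 : ⁅x, z₂ ^ 2 ^ j⁆ = c := by
    rw [d.comm_congr_pi hx hz₂Z (mul_mem hz₀ hz₁Z) hp2,
      (show Commute z₀ z₁ from d.comm _ hz₀ _ hz₁Z).mul_pow,
      d.comm_mul x (pow_mem hz₀ _) (pow_mem hz₁Z _), hk, one_mul]
  have hc1 : c ≠ 1 := fun e => hne (mem_killed.2 fun w hw => by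
    rcases d.cover (d.pi_mem hz₀) hp (d.pi_mem hw) with h | h | h | h
    · rw [d.comm_congr_pi hx hw Z.one_mem (by rw [h, one_pow]), one_pow, commutatorElement_one_right]
    · rw [d.comm_congr_pi hx hw hz₀ h, hk]
    · rw [d.comm_congr_pi hx hw hz₁Z (h.trans hp1.symm), ← hc, e]
    · rw [d.comm_congr_pi hx hw hz₂Z (h.trans (by rw [hz₂, hz₁, ← map_pow, ← map_pow])), hx2, e])
  set y := x * (φ x * φ (φ x)) with hy
  have hyK : y ∈ killed Z (j + 1) := mul_mem hx (mul_mem (hKmem hx) (hKmem (hKmem hx)))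
  have hsplit : ∀ w ∈ Z, ⁅y, w ^ 2 ^ j⁆ =
      ⁅x, w ^ 2 ^ j⁆ * (⁅φ x, w ^ 2 ^ j⁆ * ⁅φ (φ x), w ^ 2 ^ j⁆) := by
    intro w hw
    rw [hy, d.comm_comp x (pow_mem hw _) (d.comm_mem_V (mul_mem (hKmem hx) (hKmem (hKmem hx))) hw),
      d.comm_comp (φ x) (pow_mem hw _) (d.comm_mem_V (hKmem (hKmem hx)) hw)]
  have hyne : ⁅y, z₂ ^ 2 ^ j⁆ ≠ 1 := by
    rw [hsplit z₂ hz₂Z, hx2,
      show ⁅φ (φ x), z₂ ^ 2 ^ j⁆ = 1 by
        rw [hz₂, hz₁, ← map_pow, ← map_pow, ← map_commutatorElement, ← map_commutatorElement, hk,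
          map_one, map_one],
      show ⁅φ x, z₂ ^ 2 ^ j⁆ = φ c by rw [hz₂, ← map_pow, ← map_commutatorElement],
      mul_one]
    intro e
    refine hc1 (d.fp c hcV ?_)
    rw [← inv_eq_of_mul_eq_one_right e, inv_eq_of_mul_eq_one_right (pow_two c ▸ d.V_two hcV)]
  have hcube : ∀ w ∈ Z, ⁅φ (φ (φ x)), w ^ 2 ^ j⁆ = ⁅x, w ^ 2 ^ j⁆ := by
    intro w hw
    obtain ⟨w1, hw1, rfl⟩ := d.exists_preimage hφ hw
    obtain ⟨w2, hw2, rfl⟩ := d.exists_preimage hφ hw1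
    obtain ⟨w3, hw3, rfl⟩ := d.exists_preimage hφ hw2
    rw [← map_pow, ← map_pow, ← map_pow, ← map_commutatorElement, ← map_commutatorElement,
      ← map_commutatorElement, d.phi_three (d.comm_mem_V hx hw3), map_pow, map_pow, map_pow]
    exact d.comm_congr_pi hx hw3 (hmem (hmem (hmem hw3)))
      (by rw [← map_pow, ← map_pow, ← map_pow, d.phi_three (d.pi_mem hw3)])
  have hphi : ∀ w ∈ Z, ⁅φ y, w ^ 2 ^ j⁆ = ⁅y, w ^ 2 ^ j⁆ := by
    intro w hw
    have e1 := d.comm_mem_V (hKmem (hKmem hx)) hw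
    rw [show φ y = φ x * (φ (φ x) * φ (φ (φ x))) by simp only [hy, map_mul],
      d.comm_comp (φ x) (pow_mem hw _)
        (d.comm_mem_V (mul_mem (hKmem (hKmem hx)) (hKmem (hKmem (hKmem hx)))) hw),
      d.comm_comp _ (pow_mem hw _) (d.comm_mem_V (hKmem (hKmem (hKmem hx))) hw), hcube w hw,
      hsplit w hw, ← mul_assoc, d.central _ (d.comm_mem_V hx hw)]
  have hyinj : d.Inj j y := by
    intro z hz hz0
    by_contra hzp
    apply hyne
    have h1 : ⁅y, φ z ^ 2 ^ j⁆ = 1 := by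
      rw [← hphi (φ z) (hmem hz), ← map_pow, ← map_commutatorElement, hz0, map_one]
    have h2 : ⁅y, φ (φ z) ^ 2 ^ j⁆ = 1 := by
      rw [← hphi _ (hmem (hmem hz)), ← map_pow, ← map_commutatorElement, h1, map_one]
    rcases d.cover (d.pi_mem hz) hzp (d.pi_mem hz₂Z) with h | h | h | h
    · rw [d.comm_congr_pi hyK hz₂Z Z.one_mem (by rw [h, one_pow]), one_pow, commutatorElement_one_right]
    · rw [d.comm_congr_pi hyK hz₂Z hz h, hz0]
    · rw [d.comm_congr_pi hyK hz₂Z (hmem hz) (h.trans (map_pow φ z _)), h1]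
    · rw [d.comm_congr_pi hyK hz₂Z (hmem (hmem hz)) (h.trans (by rw [← map_pow, ← map_pow])), h2]
  refine ⟨y, hyK, fun h => hyne (mem_killed.1 h z₂ hz₂Z), hyinj, fun ψ hψ => ?_⟩
  have hpowK : ∀ i : ℕ, (φ ^ i) y ∈ killed Z (j + 1) :=
    fun i => d.killed_inv (j + 1) _ (pow_mem hφ i) y hyK
  have hpow : ∀ i : ℕ, ∀ w ∈ Z, ⁅(φ ^ i) y, w ^ 2 ^ j⁆ = ⁅y, w ^ 2 ^ j⁆ := by
    intro i
    induction i with
    | zero => intro w _; rfl
    | succ i ih =>
      intro w hw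
      obtain ⟨w', hw', rfl⟩ := d.exists_preimage hφ hw
      rw [pow_succ', MulAut.mul_apply, ← map_pow, ← map_commutatorElement, ih w' hw',
        map_commutatorElement, map_pow, hphi _ (hmem hw')]
  rw [mem_killed]
  intro w hw
  obtain ⟨i, hi⟩ := d.acts_as_power hψ
  obtain ⟨w', hw', rfl⟩ := d.exists_preimage hψ hw
  have h1 : ⁅ψ y, ψ w' ^ 2 ^ j⁆ = ⁅y, ψ w' ^ 2 ^ j⁆ := by
    rw [← map_pow, ← map_commutatorElement, hi _ (d.comm_mem_V hyK hw'), map_commutatorElement,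
      map_pow, hpow i _ (d.inv _ (pow_mem hφ i) _ hw'), map_pow ψ]
    exact d.comm_congr_pi hyK (d.inv _ (pow_mem hφ i) _ hw') (d.inv _ hψ _ hw')
      (by rw [← map_pow, ← map_pow, hi _ (d.pi_mem hw')])
  have hwm := pow_mem (d.inv ψ hψ w' hw') (2 ^ j)
  rw [d.comm_comp y⁻¹ hwm (d.comm_mem_V (d.killed_inv (j + 1) ψ hψ y hyK) (d.inv ψ hψ w' hw')), h1,
    ← d.comm_comp y⁻¹ hwm (d.comm_mem_V hyK (d.inv ψ hψ w' hw')), inv_mul_cancel,
    commutatorElement_one_left]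

/-- On the top level every element is killed or injective. -/
theorem top_level (d : Deep A Z V m φ) {x : X} (hx : x ∉ killed Z (m - 2)) : d.Inj (m - 2) x := by
  have hm := d.two_le
  have hK : ∀ g : X, g ∈ killed Z (m - 2 + 1) := fun g =>
    (show m - 1 = m - 2 + 1 by omega) ▸ d.top_killed g
  by_contra hni
  obtain ⟨y, -, hy, -, hfix⟩ := d.exists_fixed (hK x) hx hni
  have hc : ∀ a b : X, ⁅a, b⁆ ∈ killed Z (m - 2) := fun a b => mem_killed.2 fun z hz => by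
    let f : X →* V := MonoidHom.mk' (fun g => ⟨⁅g, z ^ 2 ^ (m - 2)⁆, d.comm_mem_V (hK g) hz⟩)
      fun g g' => Subtype.ext (d.comm_comp g (pow_mem hz _) (d.comm_mem_V (hK g') hz))
    have h : f ⁅a, b⁆ = 1 := by
      rw [map_commutatorElement, commutatorElement_eq_one_iff_mul_comm]
      exact Subtype.ext (d.central _ (f b).2 _)
    exact congrArg Subtype.val h
  haveI : (killed Z (m - 2)).Normal := ⟨fun k hk g => by
    have h := mul_mem (hc g k) hk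
    rwa [commutatorElement_def, inv_mul_cancel_right] at h⟩
  exact hy (d.hyp.mem_of_fixed (d.killed_inv _) hc hfix)

/-- The square of an element killed at level `j + 1` is killed at level `j`. -/
theorem mul_self_killed (d : Deep A Z V m φ) {j : ℕ} {x : X} (hx : x ∈ killed Z (j + 1)) :
    x * x ∈ killed Z j := mem_killed.2 fun z hz => by
  rw [d.comm_comp x (pow_mem hz _) (d.comm_mem_V hx hz), ← pow_two, d.V_two (d.comm_mem_V hx hz)]

end Deep

end CfsgLib.ScnThreeFree
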