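import Cfsg.Agent.PGroup.Critical
import Cfsg.Agent.PGroup.Abelian
import Cfsg.Agent.PGroup.Frattini
import Cfsg.Prelude.Def_Local

/-!
A 2-group `X` without normal elementary abelian subgroups of order 8 and a group `A` of automorphisms
of odd order with `⁅X, A⁆ = X`: setting and basic lemmas.
-/

set_option autoImplicit false

open scoped commutatorElement

namespace CfsgLib.ScnThreeFree

variable {X : Type*} [Group X]

/-- `S` is invariant under `A`. -/
def Inv (A : Subgroup (MulAut X)) (S : Subgroup X) : Prop := ∀ φ ∈ A, ∀ x ∈ S, φ x ∈ S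

/-- The setting. -/
structure Hyp (A : Subgroup (MulAut X)) : Prop where
  isPGroup : IsPGroup 2 X
  odd : Odd (Nat.card A)
  gen : Subgroup.closure {g : X | ∃ φ ∈ A, ∃ x : X, g = x⁻¹ * φ x} = ⊤
  rank : ∀ E : Subgroup X, E.Normal → (∀ a ∈ E, ∀ b ∈ E, a * b = b * a) → (∀ a ∈ E, a ^ 2 = 1) →
    Nat.card E ≤ 4
  nonabelian : ¬ IsMulCommutative X

namespace Hyp

variable {A : Subgroup (MulAut X)}

theorem inv_of_characteristic {S : Subgroup X} (hS : S.Characteristic) : Inv A S := fun φ _ _ hx =>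
  (Subgroup.characteristic_iff_le_comap.1 hS φ) hx

theorem eq_top_of_forall (h : Hyp A) {S : Subgroup X} (hS : ∀ φ ∈ A, ∀ x : X, x⁻¹ * φ x ∈ S) :
    S = ⊤ := by
  rw [eq_top_iff, ← h.gen, Subgroup.closure_le]
  rintro _ ⟨φ, hφ, x, rfl⟩
  exact hS φ hφ x

theorem hom_eq_one (h : Hyp A) {M : Type*} [Group M] (f : X →* M)
    (hf : ∀ φ ∈ A, ∀ x : X, f (φ x) = f x) (x : X) : f x = 1 := by
  have hk : f.ker = ⊤ := h.eq_top_of_forall fun φ hφ x => by
    rw [MonoidHom.mem_ker, map_mul, map_inv, hf φ hφ, inv_mul_cancel]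
  exact MonoidHom.mem_ker.1 (hk ▸ Subgroup.mem_top x)

/-- Elements fixed pointwise are central. -/
theorem le_center_of_fixed (h : Hyp A) {S : Subgroup X} [hn : S.Normal]
    (hS : ∀ φ ∈ A, ∀ s ∈ S, φ s = s) : S ≤ Subgroup.center X := by
  intro s hs
  have hk : Subgroup.centralizer ({s} : Set X) = ⊤ := h.eq_top_of_forall fun φ hφ x => by
    have h1 : φ (x * s * x⁻¹) = x * s * x⁻¹ := hS φ hφ _ (hn.conj_mem s hs x)
    rw [map_mul, map_mul, map_inv, hS φ hφ s hs] at h1
    rw [Subgroup.mem_centralizer_singleton_iff]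
    calc x⁻¹ * φ x * s = x⁻¹ * (φ x * s * (φ x)⁻¹) * φ x := by group
      _ = x⁻¹ * (x * s * x⁻¹) * φ x := by rw [h1]
      _ = s * (x⁻¹ * φ x) := by group
  exact Subgroup.mem_center_iff.2 fun g =>
    Subgroup.mem_centralizer_singleton_iff.1 (hk ▸ Subgroup.mem_top g)

variable [Finite X]

theorem odd_orderOf (h : Hyp A) {φ : MulAut X} (hφ : φ ∈ A) : Odd (orderOf φ) := by
  have h1 := orderOf_dvd_natCard (⟨φ, hφ⟩ : A)
  rw [← Subgroup.orderOf_coe] at h1
  exact Odd.of_dvd_nat h.odd h1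

theorem exists_two_pow (h : Hyp A) (x : X) : ∃ n : ℕ, orderOf x = 2 ^ n :=
  IsPGroup.iff_orderOf.1 h.isPGroup x

/-- An element moved by a fixed element of order at most 2 is fixed. -/
theorem fixed_of_step (h : Hyp A) {φ : MulAut X} (hφ : φ ∈ A) {z : X}
    (hw : φ (z⁻¹ * φ z) = z⁻¹ * φ z) (hw2 : (z⁻¹ * φ z) ^ 2 = 1) : φ z = z := by
  set w := z⁻¹ * φ z with hwdef
  have hz : φ z = z * w := by rw [hwdef, mul_inv_cancel_left]
  have hpow : ∀ n : ℕ, (φ ^ n) z = z * w ^ n := by
    intro n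
    induction n with
    | zero => simp
    | succ n ih => rw [pow_succ', MulAut.mul_apply, ih, map_mul, map_pow, hw, hz, pow_succ', mul_assoc]
  have h1 := hpow (orderOf φ)
  rw [pow_orderOf_eq_one, MulAut.one_apply, eq_comm, mul_eq_left] at h1
  obtain ⟨k, hk⟩ := h.odd_orderOf hφ
  rw [hk, pow_succ, pow_mul, hw2, one_pow, one_mul] at h1
  rw [hz, h1, mul_one]

/-- A fixed element modulo an invariant normal subgroup with abelian quotient lies in it. -/
theorem mem_of_fixed (h : Hyp A) {N : Subgroup X} [N.Normal] (hN : Inv A N)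
    (hc : ∀ a b : X, ⁅a, b⁆ ∈ N) {z : X} (hz : ∀ φ ∈ A, z⁻¹ * φ z ∈ N) : z ∈ N := by
  classical
  haveI : Finite (MulAut X) := Finite.of_injective (fun s : MulAut X => (s : X → X)) DFunLike.coe_injective
  haveI : Fintype A := Fintype.ofFinite _
  have hcomm : IsMulCommutative (X ⧸ N) := ⟨⟨fun a b => by
    induction a using QuotientGroup.induction_on with
    | H a =>
    induction b using QuotientGroup.induction_on with
    | H b =>
    change QuotientGroup.mk' N a * QuotientGroup.mk' N b = QuotientGroup.mk' N b * QuotientGroup.mk' N a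
    rw [← commute_iff_eq, ← commutatorElement_eq_one_iff_commute, ← map_commutatorElement]
    exact (QuotientGroup.eq_one_iff _).2 (hc a b)⟩⟩
  letI : CommGroup (X ⧸ N) :=
    { (inferInstance : Group (X ⧸ N)) with mul_comm := hcomm.1.comm }
  let f : X →* X ⧸ N := ∏ φ : A, (QuotientGroup.mk' N).comp ((φ : MulAut X) : X ≃* X).toMonoidHom
  have hf : ∀ x, f x = ∏ φ : A, ((φ : MulAut X) x : X ⧸ N) := fun x => by
    simp [f, MonoidHom.finsetProd_apply]
  have hinv : ∀ ψ ∈ A, ∀ x, f (ψ x) = f x := fun ψ hψ x => by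
    rw [hf, hf]
    exact Fintype.prod_equiv (Equiv.mulRight (⟨ψ, hψ⟩ : A)) _ _ fun φ => rfl
  have h1 := h.hom_eq_one f hinv z
  rw [hf, Finset.prod_eq_pow_card (b := (z : X ⧸ N)) fun φ _ => (QuotientGroup.eq.2 (hz _ φ.2)).symm,
    Finset.card_univ, ← Nat.card_eq_fintype_card, ← QuotientGroup.mk_pow, QuotientGroup.eq_one_iff] at h1
  obtain ⟨n, hn⟩ := h.exists_two_pow z
  have hcop : (Nat.card A).Coprime (orderOf z) := by
    rw [hn]
    exact (Nat.coprime_two_right.2 h.odd).pow_right n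
  obtain ⟨m, hm⟩ := exists_pow_eq_self_of_coprime hcop
  rw [← hm]
  exact N.pow_mem h1 m

/-- A normal elementary abelian subgroup that is invariant is central. -/
theorem le_center_of_elementary (h : Hyp A) {V : Subgroup X} [V.Normal] (hV : Inv A V)
    (hVc : ∀ a ∈ V, ∀ b ∈ V, a * b = b * a) (hV2 : ∀ a ∈ V, a ^ 2 = 1) :
    V ≤ Subgroup.center X := by
  haveI : Fact (Nat.Prime 2) := ⟨Nat.prime_two⟩
  set W := V ⊓ Subgroup.center X with hW
  by_contra hne
  have hW1 : W ≠ ⊥ := PGroup.inf_center_ne_bot h.isPGroup V fun hb => hne (hb ▸ bot_le)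
  haveI : W.Normal := Subgroup.Normal.mk fun w hw g => by
    rw [Subgroup.mem_center_iff.1 hw.2 g, mul_inv_cancel_right]; exact hw
  have hlt : Nat.card W < Nat.card V :=
    Set.Finite.card_lt_card (Set.toFinite _) (SetLike.coe_ssubset_coe.2
      (lt_of_le_of_ne inf_le_left fun (e : W = V) => hne (e ▸ inf_le_right)))
  have hW2 : Nat.card W = 2 := by
    have h4 := h.rank V inferInstance hVc hV2
    obtain ⟨k, hk⟩ := IsPGroup.iff_card.1 (h.isPGroup.to_subgroup W)
    obtain ⟨l, hl⟩ := IsPGroup.iff_card.1 (h.isPGroup.to_subgroup V)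
    rw [hk] at hlt ⊢
    rw [hl] at hlt h4
    have hkl : k < l := (Nat.pow_lt_pow_iff_right (by omega)).1 hlt
    have hl2 : l ≤ 2 := (Nat.pow_le_pow_iff_right (show 1 < 2 by omega)).1 h4
    have hk0 : k ≠ 0 := fun e => hW1 (Subgroup.eq_bot_of_card_eq _ (by rw [hk, e, pow_zero]))
    rw [show k = 1 by omega, pow_one]
  have hWfix : ∀ φ ∈ A, ∀ w ∈ W, φ w = w := fun φ hφ w hw => by
    have hmem : φ w ∈ W := ⟨hV φ hφ w hw.1,
      inv_of_characteristic (inferInstance : (Subgroup.center X).Characteristic) φ hφ w hw.2⟩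
    obtain ⟨u, v, -, huv⟩ := Nat.card_eq_two_iff.1 hW2
    by_cases hw1 : w = 1
    · rw [hw1, map_one]
    have hall : ∀ a ∈ W, a = 1 ∨ a = w := fun a ha => by
      have e1 : (⟨a, ha⟩ : W) ∈ ({u, v} : Set W) := huv ▸ Set.mem_univ _
      have e2 : (⟨w, hw⟩ : W) ∈ ({u, v} : Set W) := huv ▸ Set.mem_univ _
      have e3 : (1 : W) ∈ ({u, v} : Set W) := huv ▸ Set.mem_univ _
      simp only [Set.mem_insert_iff, Set.mem_singleton_iff] at e1 e2 e3
      by_contra hcon
      push Not at hcon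
      rcases e1 with e1 | e1 <;> rcases e2 with e2 | e2 <;> rcases e3 with e3 | e3 <;>
        first
          | exact hcon.1 (congrArg Subtype.val (e1.trans e3.symm))
          | exact hcon.2 (congrArg Subtype.val (e1.trans e2.symm))
          | exact hw1 (congrArg Subtype.val (e2.trans e3.symm))
    exact (hall _ hmem).resolve_left fun e => hw1 (φ.injective (e.trans (map_one φ).symm))
  -- the quotient `V / W` is fixed as well, so `A` fixes `V`
  refine hne (h.le_center_of_fixed fun φ hφ v hv => ?_)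
  have hVcard : Nat.card V ≤ 4 := h.rank V inferInstance hVc hV2
  have hmemW : v⁻¹ * φ v ∈ W := by
    by_cases hvW : v ∈ W
    · rw [hWfix φ hφ v hvW, inv_mul_cancel]; exact W.one_mem
    by_contra hn
    obtain ⟨w, hw, hw1⟩ := (Subgroup.bot_or_exists_ne_one W).resolve_left hW1
    have hφv : φ v ∉ W := fun hmem => hvW (by
      have h1 := hWfix φ hφ _ hmem
      rw [φ.injective h1] at hmem
      exact hmem)
    have hne5 : ({(⟨1, V.one_mem⟩ : V), ⟨w, hw.1⟩, ⟨v, hv⟩, ⟨v * w, mul_mem hv hw.1⟩,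
        ⟨φ v, hV φ hφ v hv⟩} : Set V).ncard ≤ 4 := (Set.ncard_le_card _).trans hVcard
    rw [Set.ncard_insert_of_notMem, Set.ncard_insert_of_notMem, Set.ncard_insert_of_notMem,
      Set.ncard_pair] at hne5
    · omega
    all_goals simp only [Set.mem_insert_iff, Set.mem_singleton_iff, ne_eq, Subtype.mk.injEq, not_or]
    · exact fun e => hn (by rw [← e, inv_mul_cancel_left]; exact hw)
    · exact ⟨fun e => hw1 (mul_eq_left.1 e.symm), fun e => hn (by rw [← e, inv_mul_cancel]; exact W.one_mem)⟩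
    · exact ⟨fun e => hvW (e ▸ hw), fun e => hvW (by
        have := W.mul_mem hw (W.inv_mem hw)
        rw [mul_eq_right.1 e.symm]; exact W.one_mem), fun e => hφv (e ▸ hw)⟩
    · exact ⟨fun e => hw1 e.symm, fun e => hvW (e ▸ W.one_mem), fun e => hvW (by
        rw [eq_inv_of_mul_eq_one_left e.symm]; exact W.inv_mem hw),
        fun e => hφv (e ▸ W.one_mem)⟩
  exact h.fixed_of_step hφ (hWfix φ hφ _ hmemW) (hV2 _ hmemW.1)

end Hyp

end CfsgLib.ScnThreeFree
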