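import Cfsg.Agent.ScnThreeFree.Setting

/-!
The case `X / Z(X)` elementary abelian and `Z(X)` elementary abelian: basic facts.
-/

set_option autoImplicit false

open scoped commutatorElement

namespace CfsgLib.ScnThreeFree

variable {X : Type*} [Group X]

/-- `V` is the centre, elementary abelian, and `X / V` is elementary abelian. -/
structure Base (A : Subgroup (MulAut X)) (V : Subgroup X) : Prop where
  hyp : Hyp A
  eq_center : V = Subgroup.center X
  two : ∀ a ∈ V, a ^ 2 = 1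
  sq_mem : ∀ x : X, x ^ 2 ∈ V
  comm : ∀ x y : X, ⁅x, y⁆ ∈ V

namespace Base

variable {A : Subgroup (MulAut X)} {V : Subgroup X}

theorem central (b : Base A V) {v : X} (hv : v ∈ V) (x : X) : x * v = v * x :=
  Subgroup.mem_center_iff.1 (b.eq_center ▸ hv) x

theorem normal (b : Base A V) : V.Normal := b.eq_center ▸ inferInstance

theorem inv (b : Base A V) : Inv A V := b.eq_center ▸ Hyp.inv_of_characteristic inferInstance

theorem commute_two (b : Base A V) (x y : X) : ⁅x, y⁆ = ⁅y, x⁆ := by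
  rw [← commutatorElement_inv, inv_eq_iff_mul_eq_one, ← pow_two, b.two _ (b.comm y x)]

theorem mul_left (b : Base A V) (x y z : X) : ⁅x * y, z⁆ = ⁅x, z⁆ * ⁅y, z⁆ := by
  rw [show ⁅x * y, z⁆ = x * ⁅y, z⁆ * x⁻¹ * ⁅x, z⁆ by simp [commutatorElement_def]; group,
    b.central (b.comm y z) x, mul_inv_cancel_right, b.central (b.comm x z)]

theorem mul_right (b : Base A V) (x y z : X) : ⁅x, y * z⁆ = ⁅x, y⁆ * ⁅x, z⁆ := by
  rw [b.commute_two, b.mul_left, b.commute_two y, b.commute_two z]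

theorem left_mem (b : Base A V) {v : X} (hv : v ∈ V) (x : X) : ⁅v, x⁆ = 1 :=
  commutatorElement_eq_one_iff_mul_comm.2 (b.central hv x).symm

theorem right_mem (b : Base A V) {v : X} (hv : v ∈ V) (x : X) : ⁅x, v⁆ = 1 := by
  rw [b.commute_two, b.left_mem hv]

theorem mul_sq (b : Base A V) (x y : X) : (x * y) ^ 2 = x ^ 2 * y ^ 2 * ⁅y, x⁆ := by
  have h := b.central (b.comm y x)
  calc (x * y) ^ 2 = x * (⁅y, x⁆ * (x * y)) * y := by simp [pow_two, commutatorElement_def]; group
    _ = x * ((x * y) * ⁅y, x⁆) * y := by rw [h]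
    _ = x * x * (y * ⁅y, x⁆) * y := by group
    _ = x * x * (⁅y, x⁆ * y) * y := by rw [h]
    _ = x * x * (⁅y, x⁆ * (y * y)) := by group
    _ = x * x * ((y * y) * ⁅y, x⁆) := by rw [h]
    _ = x ^ 2 * y ^ 2 * ⁅y, x⁆ := by simp only [pow_two, mul_assoc]

theorem mul_sq_of_comm (b : Base A V) {x y : X} (h : ⁅x, y⁆ = 1) : (x * y) ^ 2 = x ^ 2 * y ^ 2 := by
  rw [b.mul_sq, b.commute_two, h, mul_one]

theorem mul_sq_mem (b : Base A V) {v : X} (hv : v ∈ V) (x : X) : (x * v) ^ 2 = x ^ 2 := by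
  rw [b.mul_sq_of_comm (b.right_mem hv x), b.two v hv, mul_one]

theorem sq_map (φ : MulAut X) (x : X) : (φ x) ^ 2 = φ (x ^ 2) := (map_pow φ x 2).symm

theorem sq_congr (b : Base A V) {x y : X} (h : x⁻¹ * y ∈ V) : y ^ 2 = x ^ 2 := by
  rw [show y = x * (x⁻¹ * y) by group, b.mul_sq_mem h]

theorem comm_congr (b : Base A V) {x x' y y' : X} (h : x⁻¹ * x' ∈ V) (h' : y⁻¹ * y' ∈ V) :
    ⁅x', y'⁆ = ⁅x, y⁆ := by
  rw [show x' = x * (x⁻¹ * x') by group, show y' = y * (y⁻¹ * y') by group, b.mul_left,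
    b.left_mem h, mul_one, b.mul_right, b.right_mem h', mul_one]

variable [Finite X]

/-- A fixed coset is trivial. -/
theorem mem_of_fixed (b : Base A V) {z : X} (hz : ∀ φ ∈ A, z⁻¹ * φ z ∈ V) : z ∈ V :=
  haveI := b.normal
  b.hyp.mem_of_fixed b.inv b.comm hz

theorem card_le (b : Base A V) : Nat.card V ≤ 4 :=
  b.hyp.rank V b.normal (fun _ ha c hc => (b.central hc _)) b.two

theorem index_ne_one (b : Base A V) : V.index ≠ 1 := fun e => b.hyp.nonabelian ⟨⟨fun x y => by
  rw [Subgroup.index_eq_one] at e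
  exact b.central (e ▸ Subgroup.mem_top y) x⟩⟩

theorem exists_not_mem (b : Base A V) : ∃ x : X, x ∉ V := by
  by_contra hall
  push Not at hall
  exact b.index_ne_one (Subgroup.index_eq_one.2 ((Subgroup.eq_top_iff' V).2 hall))

theorem exists_comm_ne (b : Base A V) {x : X} (hx : x ∉ V) : ∃ y : X, ⁅x, y⁆ ≠ 1 := by
  by_contra hall
  push Not at hall
  exact hx (b.eq_center ▸ Subgroup.mem_center_iff.2 fun y =>
    (commutatorElement_eq_one_iff_mul_comm.1 (hall y)).symm)

/-- `V` with two commuting involutions outside it gives a normal elementary abelian subgroup of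
order at least 8. -/
theorem not_two_involutions (b : Base A V) {x y : X} (hx : x ∉ V) (hx2 : x ^ 2 = 1) (hy2 : y ^ 2 = 1)
    (hc : ⁅x, y⁆ = 1) : y ∈ V ∨ x⁻¹ * y ∈ V := by
  classical
  haveI := b.normal
  haveI : Fact (Nat.Prime 2) := ⟨Nat.prime_two⟩
  by_contra hcon
  push Not at hcon
  obtain ⟨hy, hxy⟩ := hcon
  set E : Subgroup X := Subgroup.closure ({x, y} ∪ (V : Set X)) with hE
  have hxE : x ∈ E := Subgroup.subset_closure (by simp)
  have hyE : y ∈ E := Subgroup.subset_closure (by simp)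
  have hVE : V ≤ E := fun v hv => Subgroup.subset_closure (Or.inr hv)
  have hgen : ∀ g ∈ ({x, y} ∪ (V : Set X) : Set X), ∀ g' ∈ ({x, y} ∪ (V : Set X) : Set X),
      g * g' = g' * g := by
    intro g hg g' hg'
    simp only [Set.mem_union, Set.mem_insert_iff, Set.mem_singleton_iff, SetLike.mem_coe] at hg hg'
    have hxy0 : x * y = y * x := commutatorElement_eq_one_iff_mul_comm.1 hc
    rcases hg with (rfl | rfl) | hg <;> rcases hg' with (rfl | rfl) | hg'
    all_goals first
      | rfl | exact hxy0 | exact hxy0.symm | exact b.central hg' _ | exact (b.central hg _).symm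
  have hcomm : ∀ g ∈ E, ∀ g' ∈ E, g * g' = g' * g := fun g hg g' hg' =>
    congrArg Subtype.val ((Subgroup.isMulCommutative_closure hgen).1.comm ⟨g, hg⟩ ⟨g', hg'⟩)
  have hexp : ∀ g ∈ E, g ^ 2 = 1 := fun g hg => by
    induction hg using Subgroup.closure_induction with
    | mem g hg =>
      simp only [Set.mem_union, Set.mem_insert_iff, Set.mem_singleton_iff, SetLike.mem_coe] at hg
      rcases hg with (rfl | rfl) | hg
      exacts [hx2, hy2, b.two g hg]
    | one => exact one_pow 2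
    | mul g g' hg hg' i i' => rw [(show Commute g g' from hcomm g hg g' hg').mul_pow, i, i', one_mul]
    | inv g _ i => rw [inv_pow, i, inv_one]
  have hEn : E.Normal := ⟨fun g hg z => by
    have h := mul_mem (hVE (b.comm z g)) hg
    rwa [commutatorElement_def, inv_mul_cancel_right] at h⟩
  have hle := b.hyp.rank E hEn hcomm hexp
  obtain ⟨v₀, hv₀, hv1⟩ := (Subgroup.bot_or_exists_ne_one V).resolve_left fun hb => by
    haveI : Nontrivial X := ⟨⟨x, 1, fun e => hx (e ▸ V.one_mem)⟩⟩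
    exact (PGroup.inf_center_ne_bot b.hyp.isPGroup ⊤ (by simp)) (by rw [top_inf_eq, ← b.eq_center, hb])
  have h5 : ({(⟨1, E.one_mem⟩ : E), ⟨x, hxE⟩, ⟨y, hyE⟩, ⟨x * y, mul_mem hxE hyE⟩,
      ⟨v₀, hVE hv₀⟩} : Set E).ncard ≤ 4 := (Set.ncard_le_card _).trans hle
  have hxy' : x * y ∉ V := fun h' => hxy (by
    rwa [inv_eq_of_mul_eq_one_right (pow_two x ▸ hx2)])
  rw [Set.ncard_insert_of_notMem, Set.ncard_insert_of_notMem, Set.ncard_insert_of_notMem,
    Set.ncard_pair] at h5
  · omega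
  all_goals simp only [Set.mem_insert_iff, Set.mem_singleton_iff, ne_eq, Subtype.mk.injEq, not_or]
  · exact fun e => hxy' (e ▸ hv₀)
  · exact ⟨fun e => hx (by rw [mul_eq_right.1 e.symm]; exact V.one_mem), fun e => hy (e ▸ hv₀)⟩
  · exact ⟨fun e => hxy (by rw [← e, inv_mul_cancel]; exact V.one_mem),
      fun e => hy (by rw [mul_eq_left.1 e.symm]; exact V.one_mem), fun e => hx (e ▸ hv₀)⟩
  · exact ⟨fun e => hx (e ▸ V.one_mem), fun e => hy (e ▸ V.one_mem),
      fun e => hxy' (e ▸ V.one_mem), fun e => hv1 e.symm⟩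

end Base

end CfsgLib.ScnThreeFree
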